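import Cfsg.Agent.H694.EB.Two
import Cfsg.Agent.Nodes.Bruhat
import Cfsg.Agent.Nodes.Unique
import Cfsg.Agent.KFacts.RgdVJ
import Cfsg.Agent.Mrg.Omega.ML.Ex.Typ.List

/-!
# TEAM EB, [U9] (helper62): the subgroups `V_K` of `U`

* `card_VK`: the number of `(V_K, V_K)`-double cosets is congruent to the number of `Reg cs K w` modulo 2;
* `VK_stable`: `V_K` is stable under the automorphisms which preserve `U` when `K` is stable under the diagram
  automorphisms.
-/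

set_option autoImplicit false
set_option linter.unusedSectionVars false

namespace Cfsg.Agent.H62.EbVK

open CoxeterSystem Cfsg Cfsg.Agent.H694.EB Cfsg.Agent.ChevalleyStructure.CoxeterGeom Cfsg.Agent.Tits.Roots
  Cfsg.Agent.Tits.Core Cfsg.Agent.Tits.RootComb Cfsg.Agent.Nodes.Comb Cfsg.Agent.Nodes.Reps Cfsg.Agent.Nodes.BNOf
  Cfsg.Agent.Nodes Cfsg.Agent.Nodes.Bruhat

variable {I W Y : Type*} [Fintype I] [DecidableEq I] [Group W] [Group Y] {M : CoxeterMatrix I}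
  {cs : CoxeterSystem M W} {A : I → I → ℤ} {h : IsCartan M A} {p : ℕ} {T : Subgroup Y} {n : I → Y}
  {X : (I → ℤ) → Subgroup Y}

/-- the positive roots outside `α_K` -/
def NK (cs : CoxeterSystem M W) (h : IsCartan M A) (K : Set I) : Set (I → ℤ) :=
  {x | x ∈ RGD.Pos cs h ∧ ∀ i ∈ K, x ≠ sr i}

/-- `V_K`: the join of the root groups of the positive roots outside `α_K` -/
def VK (cs : CoxeterSystem M W) (h : IsCartan M A) (X : (I → ℤ) → Subgroup Y) (K : Set I) : Subgroup Y :=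
  RGD.Sup X {x | x ∈ RGD.Pos cs h ∧ ∀ i ∈ K, x ≠ sr i}

theorem VK_le_U (K : Set I) : VK cs h X K ≤ RGD.Sup X (RGD.Pos cs h) := RGD.Sup_mono fun _ hx => hx.1

theorem VK_le_V {K : Set I} {i : I} (hi : i ∈ K) : VK cs h X K ≤ RGD.Sup X (RGD.PosNe cs h i) :=
  RGD.Sup_mono fun _ hx => ⟨hx.1.1, hx.1.2, hx.2 i hi⟩

theorem V_le_U (i : I) : RGD.Sup X (RGD.PosNe cs h i) ≤ RGD.Sup X (RGD.Pos cs h) :=
  RGD.Sup_mono fun _ hx => ⟨hx.1, hx.2.1⟩

/-- `w α_i = α_j` if and only if `w s_i = s_j w`, when `w α_i` is positive -/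
theorem rep_eq_iff {w : W} {i j : I} (h0 : 0 ≤ rep cs h w (sr i)) :
    rep cs h w (sr i) = sr j ↔ w * cs.simple i = cs.simple j * w := by
  constructor
  · intro he
    have h1 : cs.length w < cs.length (w * cs.simple i) := (lt_iff' cs h w i).2 h0
    have h2 : cs.length w⁻¹ < cs.length (w⁻¹ * cs.simple j) := by
      refine (lt_iff' cs h w⁻¹ j).2 ?_
      change 0 ≤ rep cs h w⁻¹ (sr j)
      rw [← he, rep_inv_apply]
      exact sr_nonneg i
    have h3 : cs.length (cs.simple j * w) = cs.length w + 1 := by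
      rw [← cs.length_inv w, ← cs.length_inv (cs.simple j * w), mul_inv_rev, inv_simple]
      have := cs.length_mul_simple w⁻¹ j
      omega
    have h4 : cs.length (w * cs.simple i) = cs.length w + 1 := by
      have := cs.length_mul_simple w i
      omega
    rcases Cfsg.Agent.Tits.Exchange.fold cs h3 h4 with h5 | h5
    · exfalso
      have h6 : ¬ cs.length (cs.simple j * w) < cs.length (cs.simple j * w * cs.simple i) := by
        intro h7
        have h8 := (lt_iff' cs h (cs.simple j * w) i).1 h7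
        change 0 ≤ rep cs h (cs.simple j * w) (sr i) at h8
        rw [rep_mul_apply, he, rep_simple_sr] at h8
        exact (isRoot_sr cs h j).not_pos_neg (sr_nonneg j) (neg_nonneg.1 h8)
      omega
    · exact h5.symm
  · intro he
    have h1 : rep cs h (cs.simple j) (rep cs h w (sr i)) = - rep cs h w (sr i) := by
      rw [← rep_mul_apply, ← he, rep_mul_apply, rep_simple_sr, map_neg]
    have hr : IsRoot cs h (rep cs h w (sr i)) := ⟨w, i, rfl⟩
    by_contra hne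
    have h2 := hr.simple_nonneg h0 j hne
    rw [h1] at h2
    exact hr.not_pos_neg h0 (neg_nonneg.1 h2)

/-- `Reg` in terms of roots -/
theorem reg_iff {K : Set I} {w : W} : Reg cs K w ↔ ∀ i ∈ K,
    (0 ≤ rep cs h w (sr i) ∧ ∀ j ∈ K, rep cs h w (sr i) ≠ sr j) ∧
    (0 ≤ rep cs h w⁻¹ (sr i) ∧ ∀ j ∈ K, rep cs h w⁻¹ (sr i) ≠ sr j) := by
  have hl : ∀ i, cs.length w < cs.length (cs.simple i * w) ↔ 0 ≤ rep cs h w⁻¹ (sr i) := by
    intro i
    have h1 := lt_iff' cs h w⁻¹ i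
    rw [cs.length_inv w, ← cs.length_inv (w⁻¹ * cs.simple i), mul_inv_rev, inv_inv, inv_simple] at h1
    exact h1
  have he : ∀ i j, w⁻¹ * cs.simple i = cs.simple j * w⁻¹ ↔ cs.simple i * w = w * cs.simple j := by
    intro i j
    constructor
    · intro h1
      have h2 : cs.simple i * w = w * (w⁻¹ * cs.simple i) * w := by group
      rw [h2, h1]; group
    · intro h1
      have h2 : w⁻¹ * cs.simple i = w⁻¹ * (cs.simple i * w) * w⁻¹ := by group
      rw [h2, h1]; group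
  unfold Reg
  refine forall₂_congr fun i _ => ?_
  refine and_congr ?_ ?_
  · constructor
    · rintro ⟨h1, h2⟩
      have h3 := (lt_iff' cs h w i).1 h1
      exact ⟨h3, fun j hj h4 => h2 j hj ((rep_eq_iff h3).1 h4)⟩
    · rintro ⟨h1, h2⟩
      exact ⟨(lt_iff' cs h w i).2 h1, fun j hj h4 => h2 j hj ((rep_eq_iff h1).2 h4)⟩
  · constructor
    · rintro ⟨h1, h2⟩
      have h3 := (hl i).1 h1
      exact ⟨h3, fun j hj h4 => h2 j hj ((he i j).1 ((rep_eq_iff h3).1 h4))⟩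
    · rintro ⟨h1, h2⟩
      exact ⟨(hl i).2 h1, fun j hj h4 => h2 j hj ((rep_eq_iff h1).2 ((he i j).2 h4))⟩

variable (R : RGD cs h p T n X)

include R

/-- `U` normalises `V_K` -/
theorem U_le_normalizer (K : Set I) :
    RGD.Sup X (RGD.Pos cs h) ≤ Subgroup.normalizer (VK cs h X K : Set Y) := by
  refine RGD.Sup_le fun x hx => ?_
  refine R.le_normalizer hx.1 ?_
  rintro y ⟨⟨hy, hy0⟩, hyK⟩
  refine ⟨hy, Or.inr ⟨?_, fun z hz => ⟨⟨hz.1, RGD.nonneg_of_btwn hx.2 hy0 hz⟩, fun i hi =>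
    RGD.ne_sr_of_btwn hx.2 hy hy0 (hyK i hi) hz⟩⟩⟩
  intro he
  have h1 := hx.2
  rw [he] at h1
  exact hy.neg.not_pos_neg h1 (neg_nonpos.2 hy0)

theorem T_le_normalizer (K : Set I) : T ≤ Subgroup.normalizer (VK cs h X K : Set Y) :=
  R.T_le_normalizer fun _ hx => hx.1.1

/-- `U = V_K ⟨X_i, i ∈ K⟩` -/
theorem U_le_of {K : Set I} {H : Subgroup Y} (hV : VK cs h X K ≤ H) (hX : ∀ i ∈ K, X (sr i) ≤ H) :
    RGD.Sup X (RGD.Pos cs h) ≤ H := by
  refine RGD.Sup_le fun x hx => ?_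
  by_cases hK : ∀ i ∈ K, x ≠ sr i
  · exact le_trans (RGD.le_Sup (S := {x | x ∈ RGD.Pos cs h ∧ ∀ i ∈ K, x ≠ sr i}) ⟨hx, hK⟩) hV
  · push Not at hK
    obtain ⟨i, hi, rfl⟩ := hK
    exact hX i hi

/-- `T ∩ U = 1` -/
theorem eq_one_of_T_U [Finite W] [Finite Y] {t : Y} (ht : t ∈ T) (hu : t ∈ RGD.Sup X (RGD.Pos cs h)) : t = 1 := by
  obtain ⟨k, hk⟩ := R.isPGroup_Upos ⟨t, hu⟩
  have h1 : t ^ p ^ k = 1 := congrArg Subtype.val hk
  have h2 : t ^ Nat.card T = 1 := by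
    have h3 : (⟨t, ht⟩ : T) ^ Nat.card T = 1 := pow_card_eq_one'
    exact congrArg Subtype.val h3
  have h3 : orderOf t ∣ Nat.gcd (p ^ k) (Nat.card T) :=
    Nat.dvd_gcd (orderOf_dvd_of_pow_eq_one h1) (orderOf_dvd_of_pow_eq_one h2)
  rw [Nat.Coprime.gcd_eq_one (Nat.Coprime.pow_left k R.tcop.symm)] at h3
  exact orderOf_eq_one_iff.1 (Nat.dvd_one.1 h3)

/-- an element of `X_i` outside `1` is not in `V_i` -/
theorem not_mem_V [Finite W] {i : I} {x : Y} (hx : x ∈ X (sr i)) (hx1 : x ≠ 1) : x ∉ RGD.Sup X (RGD.PosNe cs h i) := by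
  intro hV
  apply hx1
  apply eq_one_of_conj_mem_B R hx (rp_simple cs R.nsys i)
  have h1 : n i * x * (n i)⁻¹ ∈ cj (n i) (RGD.Sup X (RGD.PosNe cs h i)) := conj_mem_cj.2 hV
  rw [R.cj_n_V i] at h1
  exact RGD.U_le_B (V_le_U i h1)

/-- `n_i⁻¹ y n_i` lies in the cell of `s_i` for `y ∈ U` outside `V_i` -/
theorem cell_of_not_mem_V [Finite W] {i : I} {y : Y} (hy : y ∈ RGD.Sup X (RGD.Pos cs h))
    (hyV : y ∉ RGD.Sup X (RGD.PosNe cs h i)) : Cell R.nsys cs h X (cs.simple i) ((n i)⁻¹ * y * n i) := by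
  have h1 : y ∈ ((RGD.Sup X (RGD.PosNe cs h i) ⊔ X (sr i) : Subgroup Y) : Set Y) := by
    rw [sup_comm, ← R.Upos_eq i]
    exact hy
  rw [Subgroup.coe_mul_of_right_le_normalizer_left _ _ (R.X_le_normalizer_V i), Set.mem_mul] at h1
  obtain ⟨v, hv, x, hx, rfl⟩ := h1
  have hx1 : x ≠ 1 := by
    rintro rfl
    exact hyV (by rw [mul_one]; exact hv)
  -- the `V_i`-part
  have hv' : (n i)⁻¹ * v * n i ∈ RGD.B cs h T X := by
    have h2 : cj (n i)⁻¹ (RGD.Sup X (RGD.PosNe cs h i)) = RGD.Sup X (RGD.PosNe cs h i) := by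
      conv_lhs => rw [← R.cj_n_V i]
      rw [cj_inv_cj]
    have h3 : (n i)⁻¹ * v * (n i)⁻¹⁻¹ ∈ cj (n i)⁻¹ (RGD.Sup X (RGD.PosNe cs h i)) := conj_mem_cj.2 hv
    rw [h2, inv_inv] at h3
    exact RGD.U_le_B (V_le_U i h3)
  have h2 : (n i)⁻¹ * x * n i ∈ X (-sr i) := by
    have := R.conj_mem' (rp_simple cs R.nsys i) (isRoot_sr cs h i) hx
    rwa [inv_simple, rep_simple_sr] at this
  have h3 : (n i)⁻¹ * x * n i ≠ 1 := by
    intro h4
    apply hx1
    have h5 : x = n i * ((n i)⁻¹ * x * n i) * (n i)⁻¹ := by group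
    rw [h5, h4]; group
  obtain ⟨a, ha, t, ht, b, hb, e⟩ := R.rk1 i _ h2 h3
  have haB := RGD.X_le_B (T := T) (isRoot_sr cs h i) (sr_nonneg i) ha
  have hbB := RGD.X_le_B (T := T) (isRoot_sr cs h i) (sr_nonneg i) hb
  refine ⟨(n i)⁻¹ * v * n i * (a * t), mul_mem hv' (mul_mem haB (RGD.T_le_B ht)), n i, rp_simple cs R.nsys i, b, hbB, ?_⟩
  have h6 : (n i)⁻¹ * (v * x) * n i = ((n i)⁻¹ * v * n i) * ((n i)⁻¹ * x * n i) := by group
  rw [h6, e]
  group

/-- `g ∈ V k V` -/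
def Dbl (V : Subgroup Y) (k g : Y) : Prop := ∃ v ∈ V, ∃ v' ∈ V, g = v * k * v'

omit R in
theorem Dbl.inv {V : Subgroup Y} {k g : Y} (hg : Dbl V k g) : Dbl V k⁻¹ g⁻¹ := by
  obtain ⟨v, hv, v', hv', rfl⟩ := hg
  exact ⟨v'⁻¹, inv_mem hv', v⁻¹, inv_mem hv, by group⟩

/-- (←): if `w⁻¹ α_i` is positive and outside `α_K` for `i ∈ K`, then `U k V ⊆ V k V` -/
theorem left_of_reg {K : Set I} {w : W} {k : Y} (hk : Rp cs R.nsys w k)
    (hw : ∀ i ∈ K, 0 ≤ rep cs h w⁻¹ (sr i) ∧ ∀ j ∈ K, rep cs h w⁻¹ (sr i) ≠ sr j) {u g : Y}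
    (hu : u ∈ RGD.Sup X (RGD.Pos cs h)) (hg : Dbl (VK cs h X K) k g) : Dbl (VK cs h X K) k (u * g) := by
  set V := VK cs h X K with hV
  let H : Subgroup Y :=
    { carrier := {u | ∀ g, Dbl V k g ↔ Dbl V k (u * g)}
      one_mem' := fun g => by rw [one_mul]
      mul_mem' := fun {a b} ha hb g => by rw [hb g, ha (b * g), mul_assoc]
      inv_mem' := fun {a} ha g => by rw [ha (a⁻¹ * g), mul_inv_cancel_left] }
  have key : ∀ L : Subgroup Y, (∀ a ∈ L, ∀ g, Dbl V k g → Dbl V k (a * g)) → L ≤ H := by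
    intro L hL a ha g
    refine ⟨hL a ha g, fun h1 => ?_⟩
    have := hL a⁻¹ (inv_mem ha) _ h1
    rwa [inv_mul_cancel_left] at this
  have h1 : RGD.Sup X (RGD.Pos cs h) ≤ H := by
    refine U_le_of R (K := K) (key V ?_) fun i hi => key _ ?_
    · rintro a ha _ ⟨v, hv, v', hv', rfl⟩
      exact ⟨a * v, mul_mem ha hv, v', hv', by group⟩
    · rintro a ha _ ⟨v, hv, v', hv', rfl⟩
      have hn := U_le_normalizer R K (RGD.le_Sup (S := RGD.Pos cs h) ⟨isRoot_sr cs h i, sr_nonneg i⟩ ha)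
      have h2 : a * v * a⁻¹ ∈ V := (Subgroup.mem_normalizer_iff.1 hn v).1 hv
      have h3 : k⁻¹ * a * k ∈ V := by
        have h4 := R.conj_mem' hk (isRoot_sr cs h i) ha
        exact RGD.le_Sup (S := {x | x ∈ RGD.Pos cs h ∧ ∀ i ∈ K, x ≠ sr i})
          ⟨⟨(isRoot_sr cs h i).act _, (hw i hi).1⟩, (hw i hi).2⟩ h4
      exact ⟨a * v * a⁻¹, h2, k⁻¹ * a * k * v', mul_mem h3 hv', by group⟩
  exact (h1 hu g).1 hg

/-- (→) -/
theorem reg_of_left [Finite W] {K : Set I} {w : W} {k : Y} (hk : Rp cs R.nsys w k)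
    (hd : ∀ u ∈ RGD.Sup X (RGD.Pos cs h), Dbl (VK cs h X K) k (u * k)) {i : I} (hi : i ∈ K) :
    0 ≤ rep cs h w⁻¹ (sr i) ∧ ∀ j ∈ K, rep cs h w⁻¹ (sr i) ≠ sr j := by
  obtain ⟨x, hx, hx1⟩ := exists_ne_one R i
  have hxU : x ∈ RGD.Sup X (RGD.Pos cs h) := RGD.le_Sup (S := RGD.Pos cs h) ⟨isRoot_sr cs h i, sr_nonneg i⟩ hx
  obtain ⟨v, hv, v', hv', e⟩ := hd x hxU
  -- `y = v⁻¹ x`, `k⁻¹ y k = v'`
  have hyU : v⁻¹ * x ∈ RGD.Sup X (RGD.Pos cs h) := mul_mem (inv_mem (VK_le_U K hv)) hxU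
  have hyV : v⁻¹ * x ∉ RGD.Sup X (RGD.PosNe cs h i) := by
    intro h1
    apply not_mem_V R hx hx1
    have h2 := mul_mem (VK_le_V hi hv) h1
    rwa [mul_inv_cancel_left] at h2
  have hy : k⁻¹ * (v⁻¹ * x) * k = v' := by
    have h1 : k⁻¹ * (v⁻¹ * x) * k = k⁻¹ * v⁻¹ * (x * k) := by group
    rw [h1, e]; group
  have hz := cell_of_not_mem_V R hyU hyV
  set z := (n i)⁻¹ * (v⁻¹ * x) * n i with hzdef
  have hv'B : v' ∈ RGD.B cs h T X := RGD.U_le_B (VK_le_U K hv')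
  have hpos : 0 ≤ rep cs h w⁻¹ (sr i) := by
    by_contra hcon
    have hlt : cs.length (cs.simple i * w) < cs.length w := by
      have h1 : ¬ cs.length w⁻¹ < cs.length (w⁻¹ * cs.simple i) := fun h2 => hcon ((lt_iff' cs h w⁻¹ i).1 h2)
      rw [← cs.length_inv w, ← cs.length_inv (cs.simple i * w), mul_inv_rev, inv_simple]
      have h2 := cs.length_mul_simple w⁻¹ i
      omega
    have hk1 : Rp cs R.nsys (cs.simple i * w) ((n i)⁻¹ * k) := by
      have := (rp_simple cs R.nsys i).inv.mul hk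
      rwa [inv_simple] at this
    have h2 : cs.simple i * (cs.simple i * w) = w := by rw [← mul_assoc, simple_mul_simple_self, one_mul]
    have h3 := Cell.mul_of_length R (v := cs.simple i) (w := cs.simple i * w) (by
      rw [h2, cs.length_simple]
      have := cs.length_simple_mul w i
      omega) hz (cell_of_rp (X := X) (h := h) hk1)
    rw [h2] at h3
    have h4 : z * ((n i)⁻¹ * k) = (n i)⁻¹ * k * v' := by
      rw [← hy, hzdef]; group
    rw [h4] at h3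
    have h5 := Cell.unique R h3 ((cell_of_rp (X := X) (h := h) hk1).mul_right hv'B)
    rw [← h5] at hlt
    exact lt_irrefl _ hlt
  refine ⟨hpos, fun j hj he => ?_⟩
  have h1 := (rep_eq_iff hpos).1 he
  -- `s_i w s_j = w`
  have h2 : cs.simple i * w = w * cs.simple j := by
    have h3 : cs.simple i * w = w * (w⁻¹ * cs.simple i) * w := by group
    rw [h3, h1]; group
  have h3 : cs.simple i * w * cs.simple j = w := by
    rw [h2, mul_assoc, simple_mul_simple_self, mul_one]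
  have hk1 : Rp cs R.nsys w ((n i)⁻¹ * k * n j) := by
    have := ((rp_simple cs R.nsys i).inv.mul hk).mul (rp_simple cs R.nsys j)
    rwa [inv_simple, h3] at this
  have hlt : cs.length (cs.simple i * w) = cs.length w + 1 := by
    have h1 : cs.length w⁻¹ < cs.length (w⁻¹ * cs.simple i) := (lt_iff' cs h w⁻¹ i).2 hpos
    rw [← cs.length_inv w, ← cs.length_inv (cs.simple i * w), mul_inv_rev, inv_simple]
    have h2 := cs.length_mul_simple w⁻¹ i
    omega
  have h4 := Cell.mul_of_length R (v := cs.simple i) (w := w) (by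
      rw [cs.length_simple]; omega) hz (cell_of_rp (X := X) (h := h) hk1)
  have h5 : z * ((n i)⁻¹ * k * n j) = (n i)⁻¹ * k * n j * ((n j)⁻¹ * v' * n j) := by
    rw [← hy, hzdef]; group
  have h6 : (n j)⁻¹ * v' * n j ∈ RGD.B cs h T X := by
    have h2 : cj (n j)⁻¹ (RGD.Sup X (RGD.PosNe cs h j)) = RGD.Sup X (RGD.PosNe cs h j) := by
      conv_lhs => rw [← R.cj_n_V j]
      rw [cj_inv_cj]
    have h3 : (n j)⁻¹ * v' * (n j)⁻¹⁻¹ ∈ cj (n j)⁻¹ (RGD.Sup X (RGD.PosNe cs h j)) := conj_mem_cj.2 (VK_le_V hj hv')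
    rw [h2, inv_inv] at h3
    exact RGD.U_le_B (V_le_U j h3)
  rw [h5] at h4
  have h7 := Cell.unique R h4 ((cell_of_rp (X := X) (h := h) hk1).mul_right h6)
  rw [h7] at hlt
  omega

/-- **`U k U = V k V` if and only if `Reg cs K w`.** -/
theorem dbl_iff [Finite W] {K : Set I} {w : W} {k : Y} (hk : Rp cs R.nsys w k) :
    (∀ u ∈ RGD.Sup X (RGD.Pos cs h), ∀ u' ∈ RGD.Sup X (RGD.Pos cs h), Dbl (VK cs h X K) k (u * k * u')) ↔
      Reg cs K w := by
  rw [reg_iff (h := h)]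
  constructor
  · intro hd i hi
    refine ⟨?_, reg_of_left R hk (fun u hu => ?_) hi⟩
    · have h1 := reg_of_left R (w := w⁻¹) (K := K) hk.inv (fun u hu => ?_) hi
      · rwa [inv_inv] at h1
      · have h2 := (hd 1 (one_mem _) u⁻¹ (inv_mem hu)).inv
        have e : (1 * k * u⁻¹)⁻¹ = u * k⁻¹ := by group
        rwa [e] at h2
    · have h2 := hd u hu 1 (one_mem _)
      rwa [mul_one] at h2
  · intro hr u hu u' hu'
    have h0 : Dbl (VK cs h X K) k k := ⟨1, one_mem _, 1, one_mem _, by group⟩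
    have h1 : Dbl (VK cs h X K) k (k * u') := by
      have h2 := left_of_reg R (w := w⁻¹) (K := K) hk.inv (fun i hi => by rw [inv_inv]; exact (hr i hi).1)
        (inv_mem hu') h0.inv
      have h3 := h2.inv
      rw [inv_inv] at h3
      have e : (u'⁻¹ * k⁻¹)⁻¹ = k * u' := by group
      rwa [e] at h3
    have h2 := left_of_reg R hk (fun i hi => (hr i hi).2) hu h1
    rwa [← mul_assoc] at h2

theorem GG_top (hX : RGDLib.G1 cs h X = ⊤) (g : Y) : g ∈ GG cs h T X := by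
  have h1 : g ∈ RGDLib.G1 cs h X := by rw [hX]; exact Subgroup.mem_top g
  have h2 : RGDLib.G1 cs h X ≤ GG cs h T X := RGD.Sup_le fun x hx => X_le_GG hx
  exact h2 h1

/-- every element is `u k u'` -/
theorem exists_uku [Finite W] (hX : RGDLib.G1 cs h X = ⊤) (g : Y) : ∃ w, ∃ k, Rp cs R.nsys w k ∧
    ∃ u ∈ RGD.Sup X (RGD.Pos cs h), ∃ u' ∈ RGD.Sup X (RGD.Pos cs h), g = u * k * u' := by
  obtain ⟨w, b₁, hb₁, k, hk, b₂, hb₂, rfl⟩ := (mem_GG R).1 (GG_top R hX g)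
  obtain ⟨t₁, ht₁, u₁, hu₁, e₁⟩ := R.mem_B.1 (inv_mem hb₁)
  obtain ⟨t₂, ht₂, u₂, hu₂, rfl⟩ := R.mem_B.1 hb₂
  have e : b₁ = u₁⁻¹ * t₁⁻¹ := by rw [← inv_inv b₁, e₁]; group
  refine ⟨w, t₁⁻¹ * k * t₂, ?_, u₁⁻¹, inv_mem hu₁, u₂, hu₂, by rw [e]; group⟩
  have h1 := ((rp_of_mem (cs := cs) (hN := R.nsys) (inv_mem ht₁)).mul hk).mul_mem_right ht₂
  rwa [one_mul] at h1

/-- the elements of `N` are representatives of the `(U, U)`-double cosets -/
theorem rp_unique_of_U [Finite W] [Finite Y] {w w' : W} {k k' : Y} (hk : Rp cs R.nsys w k) (hk' : Rp cs R.nsys w' k')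
    {u u' : Y} (hu : u ∈ RGD.Sup X (RGD.Pos cs h)) (hu' : u' ∈ RGD.Sup X (RGD.Pos cs h)) (e : k' = u * k * u') :
    w = w' ∧ k = k' := by
  have h1 : Cell R.nsys cs h X w k' := by
    rw [e]
    exact ((cell_of_rp hk).mul_left (RGD.U_le_B hu)).mul_right (RGD.U_le_B hu')
  have h2 := Cell.unique R h1 (cell_of_rp hk')
  subst h2
  refine ⟨rfl, ?_⟩
  have ht : k⁻¹ * k' ∈ T := hk.unique hk'
  have h3 : k⁻¹ * u * k = k⁻¹ * k' * u'⁻¹ := by rw [e]; group
  have h4 : k⁻¹ * u * k ∈ RGD.B cs h T X := by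
    rw [h3]
    exact mul_mem (RGD.T_le_B ht) (inv_mem (RGD.U_le_B hu'))
  obtain ⟨m, hm⟩ := R.isPGroup_Upos ⟨u, hu⟩
  have hm' : u ^ p ^ m = 1 := congrArg Subtype.val hm
  have h5 : k⁻¹ * u * k ∈ RGD.Sup X (RGD.Pos cs h) := by
    refine R.mem_U_of_mem_B h4 (k := m) ?_
    have h6 : k⁻¹ * u * k = k⁻¹ * u * k⁻¹⁻¹ := by rw [inv_inv]
    rw [h6, conj_pow, hm']
    group
  have h6 : k⁻¹ * k' ∈ RGD.Sup X (RGD.Pos cs h) := by
    have h7 : k⁻¹ * k' = (k⁻¹ * u * k) * u' := by rw [h3]; group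
    rw [h7]
    exact mul_mem h5 hu'
  have h7 := eq_one_of_T_U R ht h6
  exact inv_mul_eq_one.1 h7

omit R in
/-- the action of `U × U` on the double cosets -/
@[instance_reducible] def actD (U V : Subgroup Y) (hn : U ≤ Subgroup.normalizer (V : Set Y)) :
    MulAction (U × U) (DoubleCoset.Quotient (V : Set Y) (V : Set Y)) where
  smul a := Quotient.map (fun g => (a.1 : Y) * g * (a.2 : Y)⁻¹) (by
    intro x y hxy
    have h1 := DoubleCoset.rel_iff.1 hxy
    obtain ⟨v, hv, v', hv', rfl⟩ := h1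
    refine DoubleCoset.rel_iff.2 ⟨a.1 * v * (a.1 : Y)⁻¹, (Subgroup.mem_normalizer_iff.1 (hn a.1.2) v).1 hv,
      a.2 * v' * (a.2 : Y)⁻¹, (Subgroup.mem_normalizer_iff.1 (hn a.2.2) v').1 hv', ?_⟩
    group)
  one_smul q := by
    induction q using Quotient.inductionOn with
    | _ g =>
    change Quotient.mk _ (((1 : U) : Y) * g * ((1 : U) : Y)⁻¹) = _
    rw [OneMemClass.coe_one, one_mul, inv_one, mul_one]
  mul_smul a b q := by
    induction q using Quotient.inductionOn with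
    | _ g =>
    change Quotient.mk _ (((a.1 * b.1 : U) : Y) * g * ((a.2 * b.2 : U) : Y)⁻¹) =
      Quotient.mk _ ((a.1 : Y) * ((b.1 : Y) * g * (b.2 : Y)⁻¹) * (a.2 : Y)⁻¹)
    congr 1
    rw [Subgroup.coe_mul, Subgroup.coe_mul]
    group

omit R in
/-- **[U9]** the number of double cosets of `V_K` modulo 2 -/
theorem card_VK [Finite W] [Finite Y] (R : RGD cs h 2 T n X) (hX : RGDLib.G1 cs h X = ⊤) (K : Set I) :
    Nat.card (DoubleCoset.Quotient (VK cs h X K : Set Y) (VK cs h X K : Set Y)) % 2 =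
      Nat.card {w : W // Reg cs K w} % 2 := by
  have h2 : Fact (Nat.Prime 2) := ⟨Nat.prime_two⟩
  set U := RGD.Sup X (RGD.Pos cs h) with hU
  set V := VK cs h X K with hV
  let := actD U V (U_le_normalizer R K)
  have hfQ : Finite (DoubleCoset.Quotient (V : Set Y) (V : Set Y)) := Quotient.finite _
  have hP : IsPGroup 2 (U × U) := by
    obtain ⟨m, hm⟩ := IsPGroup.iff_card.1 R.isPGroup_Upos
    refine IsPGroup.of_card (n := m + m) ?_
    rw [Nat.card_prod, hm, pow_add]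
  have h1 := hP.card_modEq_card_fixedPoints (DoubleCoset.Quotient (V : Set Y) (V : Set Y))
  unfold Nat.ModEq at h1
  rw [h1]
  -- representatives
  choose r hr using fun w => exists_rp cs R.nsys w
  have hrt : ∀ (w : W) (t : T), Rp cs R.nsys w (r w * t) := fun w t => (hr w).mul_mem_right t.2
  let F : {w : W // Reg cs K w} × T → MulAction.fixedPoints (U × U) (DoubleCoset.Quotient (V : Set Y) (V : Set Y)) :=
    fun a => ⟨Quotient.mk _ (r a.1.1 * a.2), fun b => by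
      change Quotient.mk _ ((b.1 : Y) * (r a.1.1 * a.2) * (b.2 : Y)⁻¹) = _
      refine (Quotient.sound ?_).symm
      refine DoubleCoset.rel_iff.2 ?_
      exact (dbl_iff R (hrt a.1.1 a.2)).2 a.1.2 _ b.1.2 _ (inv_mem b.2.2)⟩
  have hF : Function.Bijective F := by
    constructor
    · rintro ⟨⟨w, hw⟩, t⟩ ⟨⟨w', hw'⟩, t'⟩ he
      have h3 := congrArg Subtype.val he
      have h4 := DoubleCoset.rel_iff.1 (Quotient.exact h3)
      obtain ⟨v, hv, v', hv', e⟩ := h4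
      obtain ⟨h5, h6⟩ := rp_unique_of_U R (hrt w t) (hrt w' t') (VK_le_U K hv) (VK_le_U K hv') e
      subst h5
      have h7 : t = t' := Subtype.ext (mul_left_cancel h6)
      rw [h7]
    · rintro ⟨q, hq⟩
      induction q using Quotient.inductionOn with
      | _ g =>
      obtain ⟨w, k, hk, u, hu, u', hu', rfl⟩ := exists_uku R hX g
      have h3 : ∀ a b : Y, a ∈ U → b ∈ U → Dbl V k (a * k * b) := by
        intro a b ha hb
        have h4 := hq (⟨u⁻¹, inv_mem hu⟩, ⟨u', hu'⟩)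
        have h5 := hq (⟨a * u⁻¹, mul_mem ha (inv_mem hu)⟩, ⟨b⁻¹ * u', mul_mem (inv_mem hb) hu'⟩)
        change Quotient.mk _ (u⁻¹ * (u * k * u') * u'⁻¹) = _ at h4
        change Quotient.mk _ (a * u⁻¹ * (u * k * u') * (b⁻¹ * u')⁻¹) = _ at h5
        have h6 := DoubleCoset.rel_iff.1 (Quotient.exact (h4.trans h5.symm))
        have e1 : u⁻¹ * (u * k * u') * u'⁻¹ = k := by group
        have e2 : a * u⁻¹ * (u * k * u') * (b⁻¹ * u')⁻¹ = a * k * b := by group
        rw [e1, e2] at h6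
        exact h6
      have hreg : Reg cs K w := (dbl_iff R hk).1 fun a ha b hb => h3 a b ha hb
      refine ⟨(⟨w, hreg⟩, ⟨(r w)⁻¹ * k, (hr w).unique hk⟩), ?_⟩
      apply Subtype.ext
      change Quotient.mk _ (r w * ((r w)⁻¹ * k)) = Quotient.mk _ (u * k * u')
      rw [mul_inv_cancel_left]
      refine Quotient.sound (DoubleCoset.rel_iff.2 ?_)
      exact h3 u u' hu hu'
  rw [← Nat.card_congr (Equiv.ofBijective F hF), Nat.card_prod, Nat.mul_mod]
  have hT : Nat.card T % 2 = 1 := by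
    have h3 := R.tcop
    rw [Nat.coprime_two_right] at h3
    exact Nat.odd_iff.1 h3
  rw [hT, mul_one, Nat.mod_mod]

/-! ### stability -/

theorem normalizer_U [Finite W] (hX : RGDLib.G1 cs h X = ⊤) :
    Subgroup.normalizer (RGD.Sup X (RGD.Pos cs h) : Set Y) = RGD.B cs h T X := by
  have h1 := KFacts.RgdVJ.normalizer_VJ R ∅
  have h2 : LeviDec.VJ cs h X ∅ = RGD.Sup X (RGD.Pos cs h) := by
    unfold LeviDec.VJ
    congr 1
    ext x
    constructor
    · rintro ⟨hx, hx0, -⟩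
      exact ⟨hx, hx0⟩
    · rintro ⟨hx, hx0⟩
      refine ⟨hx, hx0, ?_⟩
      by_contra hcon
      push Not at hcon
      exact hx.ne_zero (funext fun k => le_antisymm (hcon k (Set.notMem_empty k)) (hx0 k))
  have h3 : GG cs h T X = ⊤ := by
    rw [eq_top_iff]
    intro g _
    exact GG_top R hX g
  rw [h2, h3, inf_top_eq, KFacts.RgdVJ.PJ_empty R] at h1
  exact h1

omit R in
theorem closed_NK (K : Set I) : Unique.Closed cs h {x | x ∈ RGD.Pos cs h ∧ ∀ i ∈ K, x ≠ sr i} :=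
  fun _ hx _ hy _ hz => ⟨⟨hz.1, RGD.nonneg_of_btwn hx.1.2 hy.1.2 hz⟩, fun i hi =>
    RGD.ne_sr_of_btwn hx.1.2 hy.1.1 hy.1.2 (hy.2 i hi) hz⟩

omit R in
theorem closed_PosNe (i : I) : Unique.Closed cs h (RGD.PosNe cs h i) :=
  fun _ hx _ hy _ hz => ⟨hz.1, RGD.nonneg_of_btwn hx.2.1 hy.2.1 hz,
    RGD.ne_sr_of_btwn hx.2.1 hy.1 hy.2.1 hy.2.2 hz⟩

theorem mem_VK_insert [Finite W] {K : Set I} {i : I} {u : Y} (h1 : u ∈ VK cs h X K)
    (h2 : u ∈ RGD.Sup X (RGD.PosNe cs h i)) : u ∈ VK cs h X (insert i K) := by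
  have h3 := Unique.inf_eq R (S := {x | x ∈ RGD.Pos cs h ∧ ∀ i ∈ K, x ≠ sr i})
    (S' := RGD.PosNe cs h i) (fun x hx => hx.1) (fun x hx => ⟨hx.1, hx.2.1⟩) (closed_NK _) (closed_PosNe i)
  have h5 : ({x | x ∈ RGD.Pos cs h ∧ ∀ i ∈ K, x ≠ sr i} ∩ RGD.PosNe cs h i : Set (I → ℤ)) =
      {x | x ∈ RGD.Pos cs h ∧ ∀ j ∈ insert i K, x ≠ sr j} := by
    ext x
    constructor
    · rintro ⟨⟨hx, hxK⟩, hxi⟩
      refine ⟨hx, fun j hj => ?_⟩
      rcases hj with rfl | hj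
      · exact hxi.2.2
      · exact hxK j hj
    · rintro ⟨hx, hxK⟩
      exact ⟨⟨hx, fun j hj => hxK j (Set.mem_insert_of_mem i hj)⟩, hx.1, hx.2, hxK i (Set.mem_insert i K)⟩
  unfold VK
  rw [← h5, ← h3]
  exact ⟨h1, h2⟩

/-- `V_K` is the intersection of the `V_i`, `i ∈ K` -/
theorem mem_VK_iff [Finite W] {K : Set I} {u : Y} :
    u ∈ VK cs h X K ↔ u ∈ RGD.Sup X (RGD.Pos cs h) ∧ ∀ i ∈ K, u ∈ RGD.Sup X (RGD.PosNe cs h i) := by
  constructor
  · intro hu
    exact ⟨VK_le_U K hu, fun i hi => VK_le_V hi hu⟩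
  · rintro ⟨hu, hK⟩
    have key : ∀ s : Set I, s.Finite → (∀ i ∈ s, u ∈ RGD.Sup X (RGD.PosNe cs h i)) → u ∈ VK cs h X s := by
      intro s hs
      induction s, hs using Set.Finite.induction_on with
      | empty =>
        intro _
        have h5 : ({x | x ∈ RGD.Pos cs h ∧ ∀ j ∈ (∅ : Set I), x ≠ sr j} : Set (I → ℤ)) = RGD.Pos cs h := by
          ext x
          exact ⟨fun hx => hx.1, fun hx => ⟨hx, fun j hj => absurd hj (Set.notMem_empty j)⟩⟩
        unfold VK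
        rw [h5]
        exact hu
      | insert hi _ ih =>
        intro hs
        exact mem_VK_insert R (ih fun j hj => hs j (Set.mem_insert_of_mem _ hj)) (hs _ (Set.mem_insert _ _))
    exact key K (Set.toFinite K) hK

section BN

open Cfsg.Agent.H694 Cfsg.Agent.FixBN Cfsg.Agent.FixBN.TwOfBN Cfsg.Agent.OddHalf.Table.AutBldg
  Cfsg.Agent.LieExceptional.BNPairCore Cfsg.Agent.Tits.OfBN Cfsg.Agent.Schreier.BNSch Cfsg.Agent.Tits.OppRes

/-- `V_i` is the core of `U` in the minimal parabolic subgroup `P_i` -/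
theorem mem_V_iff [Finite W] (hgen : RGD.B cs h T X ⊔ NN cs R.nsys = ⊤) {i : I} {u : Y} :
    u ∈ RGD.Sup X (RGD.PosNe cs h i) ↔ u ∈ RGD.Sup X (RGD.Pos cs h) ∧
      ∀ g ∈ PJ (R.bnPair hgen) (Equiv.ofInjective n R.n_injective) {i}, g * u * g⁻¹ ∈ RGD.Sup X (RGD.Pos cs h) := by
  have hni : n i ∈ PJ (R.bnPair hgen) (Equiv.ofInjective n R.n_injective) {i} := by
    refine (le_sup_right : Subgroup.closure _ ≤ _) (Subgroup.subset_closure ⟨i, rfl, rfl⟩)
  constructor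
  · intro hu
    refine ⟨V_le_U i hu, ?_⟩
    have h1 : PJ (R.bnPair hgen) (Equiv.ofInjective n R.n_injective) {i} ≤
        Subgroup.normalizer (RGD.Sup X (RGD.PosNe cs h i) : Set Y) := by
      refine sup_le ?_ ?_
      · change RGD.B cs h T X ≤ _
        refine sup_le (R.T_le_normalizer fun x hx => hx.1) ?_
        rw [R.Upos_eq i]
        exact sup_le (R.X_le_normalizer_V i) Subgroup.le_normalizer
      · rw [Subgroup.closure_le]
        rintro _ ⟨j, hj, rfl⟩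
        rw [Set.mem_singleton_iff] at hj
        subst hj
        exact mem_normalizer_iff_cj.2 (R.cj_n_V j)
    intro g hg
    exact V_le_U i ((Subgroup.mem_normalizer_iff.1 (h1 hg) u).1 hu)
  · rintro ⟨hu, hP⟩
    have h1 : u ∈ ((RGD.Sup X (RGD.PosNe cs h i) ⊔ X (sr i) : Subgroup Y) : Set Y) := by
      rw [sup_comm, ← R.Upos_eq i]
      exact hu
    rw [Subgroup.coe_mul_of_right_le_normalizer_left _ _ (R.X_le_normalizer_V i), Set.mem_mul] at h1
    obtain ⟨v, hv, x, hx, rfl⟩ := h1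
    have h2 := hP _ hni
    have h3 : n i * v * (n i)⁻¹ ∈ RGD.Sup X (RGD.PosNe cs h i) := by
      rw [← R.cj_n_V i]
      exact conj_mem_cj.2 hv
    have h4 : n i * x * (n i)⁻¹ ∈ RGD.B cs h T X := by
      have e : n i * x * (n i)⁻¹ = (n i * v * (n i)⁻¹)⁻¹ * (n i * (v * x) * (n i)⁻¹) := by group
      rw [e]
      exact RGD.U_le_B (mul_mem (inv_mem (V_le_U i h3)) h2)
    have h5 := eq_one_of_conj_mem_B R hx (rp_simple cs R.nsys i) h4
    rw [h5, mul_one]
    exact hv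

omit R in
/-- an automorphism preserving `B` permutes the types -/
theorem exists_perm {K : Type*} [Group K] [Finite K] {P : Cfsg.BNPair K} [hN : ((P.B ⊓ P.N).subgroupOf P.N).Normal]
    {I : Type*} [Finite I] {M : CoxeterMatrix I} (e : I ≃ P.S) (cs : CoxeterSystem M (WP P))
    (hcs : ∀ i, cs.simple i = QuotientGroup.mk (⟨(e i : K), P.subset (e i).2⟩ : P.N)) {α : MulAut K}
    (hα : Keep P α) : ∃ σ : I ≃ I, (∀ i j, M (σ i) (σ j) = M i j) ∧
      ∀ (J : Set I) x, x ∈ PJ P e J ↔ α x ∈ PJ P e (σ '' J) := by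
  have hC : Cox cs := inferInstance
  have hinj := sg_injective e cs hcs hα
  refine ⟨Equiv.ofBijective _ (Finite.injective_iff_bijective.1 hinj), fun i j =>
    sg_M e cs hcs hα i j, fun J x => ?_⟩
  change x ∈ PJ P e J ↔ α x ∈ PJ P e (sg e cs hcs hα '' J)
  rw [mem_PJ e cs hcs, mem_PJ e cs hcs]
  have h3 : wt P (α x) = fW P α (wt P x) := (fW_wt α hα x).symm
  rw [h3]
  let f : WP P →* WP P :=
    { toFun := fW P α
      map_one' := fW_one α hα
      map_mul' := fW_mul α hα e cs hcs }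
  have hfinj : Function.Injective f := fW_injective α hα
  have h4 : (WJ cs J).map f = WJ cs (sg e cs hcs hα '' J) := by
    rw [WJ, WJ, MonoidHom.map_closure]
    congr 1
    ext w
    constructor
    · rintro ⟨_, ⟨i, hi, rfl⟩, rfl⟩
      exact ⟨_, ⟨i, hi, rfl⟩, (fW_simple' e cs hcs hα i).symm⟩
    · rintro ⟨_, ⟨i, hi, rfl⟩, rfl⟩
      exact ⟨_, ⟨i, hi, rfl⟩, fW_simple' e cs hcs hα i⟩
  rw [← h4]
  constructor
  · intro h
    exact ⟨_, h, rfl⟩
  · rintro ⟨w, hw, hwx⟩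
    have : w = wt P x := hfinj hwx
    rwa [← this]

omit R in
/-- **[U9]** `V_K` is stable under the automorphisms preserving `U` if `K` is stable under the diagram
automorphisms -/
theorem VK_stable [Finite W] [Finite Y] [IsSimpleGroup Y] (R : RGD cs h 2 T n X) (hX : RGDLib.G1 cs h X = ⊤) (K : Set I)
    (hK : ∀ σ : I ≃ I, (∀ i j, M (σ i) (σ j) = M i j) → σ '' K = K) (α : Y ≃* Y)
    (hα : (RGD.Sup X (RGD.Pos cs h)).map α.toMonoidHom = RGD.Sup X (RGD.Pos cs h)) :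
    (VK cs h X K).map α.toMonoidHom = VK cs h X K := by
  have hgen := RGDLib.rgd_gen_of_G1 R hX
  obtain ⟨hN, cs', hcs⟩ := Cfsg.Agent.Omega.ML.Ex.Typ.bnType R hgen
  set P := R.bnPair hgen with hP
  set e := Equiv.ofInjective n R.n_injective with he
  set U := RGD.Sup X (RGD.Pos cs h) with hU
  have hαU : ∀ u, α u ∈ U ↔ u ∈ U := by
    intro u
    constructor
    · intro h1
      rw [← hα] at h1
      obtain ⟨v, hv, h2⟩ := h1
      have h3 : v = u := α.injective h2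
      rwa [← h3]
    · intro h1
      rw [← hα]
      exact ⟨u, h1, rfl⟩
  have hKeep : Keep P (α : MulAut Y) := by
    intro b
    change α b ∈ RGD.B cs h T X ↔ b ∈ RGD.B cs h T X
    rw [← normalizer_U R hX, Subgroup.mem_normalizer_iff, Subgroup.mem_normalizer_iff]
    constructor
    · intro h1 u
      have h2 := h1 (α u)
      rw [← map_inv, ← map_mul, ← map_mul] at h2
      exact (hαU u).symm.trans (h2.trans (hαU _))
    · intro h1 u
      have h2 := h1 (α.symm u)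
      have h3 : u = α (α.symm u) := (α.apply_symm_apply u).symm
      rw [h3, ← map_inv, ← map_mul, ← map_mul]
      exact (hαU _).trans (h2.trans (hαU _).symm)
  obtain ⟨σ, hσM, hPJ⟩ := exists_perm e cs' hcs hKeep
  have hσK := hK σ hσM
  -- `α V_i = V_(σ i)`
  have hV : ∀ i u, u ∈ RGD.Sup X (RGD.PosNe cs h i) →
      α u ∈ RGD.Sup X (RGD.PosNe cs h (σ i)) := by
    intro i u hu
    rw [mem_V_iff R hgen] at hu ⊢
    refine ⟨(hαU u).2 hu.1, fun g hg => ?_⟩
    have h1 := (hPJ {i} (α.symm g)).2 (by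
      rw [α.apply_symm_apply, Set.image_singleton]
      exact hg)
    have h2 := (hαU _).2 (hu.2 _ h1)
    rwa [map_mul, map_mul, map_inv, α.apply_symm_apply] at h2
  have hle : (VK cs h X K).map α.toMonoidHom ≤ VK cs h X K := by
    rintro _ ⟨u, hu, rfl⟩
    have hu' : u ∈ VK cs h X K := hu
    rw [mem_VK_iff R] at hu'
    change α u ∈ _
    rw [mem_VK_iff R]
    refine ⟨(hαU u).2 hu'.1, fun j hj => ?_⟩
    rw [← hσK] at hj
    obtain ⟨i, hi, rfl⟩ := hj
    exact hV i u (hu'.2 i hi)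
  refine Subgroup.eq_of_le_of_card_ge hle ?_
  rw [Subgroup.card_map_of_injective α.injective]

end BN

end Cfsg.Agent.H62.EbVK
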