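import Cfsg.Agent.H776.Co.FusDef
import Cfsg.Agent.H328.CoP.Basic
import Cfsg.Agent.H764.Q.TrivOn
import Cfsg.Agent.H753.CentStrong
import Cfsg.Agent.S4207
import Cfsg.Agent.Lib.FrattiniPGroup

/-!
# S5227, C8 (helper62): `tor 1 (-1) 1` and `w3` in a normalised system in which `Aut_F(R3)` moves `W5`
-/

set_option autoImplicit false
set_option linter.style.longLine false

namespace Cfsg.Agent.H62.Co8

open Subgroup Cfsg Cfsg.FusionSystem Cfsg.Agent.H752 Cfsg.Agent.H776.Co Cfsg.Agent.H776.Co.P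

/-! ### root elements -/

def xb (t : ZMod 3) : P := ⟨0, t, 0, 0, 0, 0, 0, 0, 0⟩
def xc (t : ZMod 3) : P := ⟨0, 0, t, 0, 0, 0, 0, 0, 0⟩
def y11 (t : ZMod 3) : P := ⟨0, 0, 0, t, 0, 0, 0, 0, 0⟩
def y12 (t : ZMod 3) : P := ⟨0, 0, 0, 0, t, 0, 0, 0, 0⟩
def y22 (t : ZMod 3) : P := ⟨0, 0, 0, 0, 0, t, 0, 0, 0⟩
def y13 (t : ZMod 3) : P := ⟨0, 0, 0, 0, 0, 0, t, 0, 0⟩
def y23 (t : ZMod 3) : P := ⟨0, 0, 0, 0, 0, 0, 0, t, 0⟩
def y33 (t : ZMod 3) : P := ⟨0, 0, 0, 0, 0, 0, 0, 0, t⟩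

/-- normal form in `R3` -/
theorem nf {x : P} (hx : x ∈ R3) :
    x = y11 x.m11 * (y12 x.m12 * (y22 x.m22 * (y13 x.m13 * (y23 x.m23 * (xc x.c * (xb x.b * xa x.a)))))) := by
  have h1 : x.m33 = 0 := hx
  ext <;> simp [y11, y12, y22, y13, y23, xc, xb, xa, h1]

theorem xc_comm (t : ZMod 3) : xc t = xa 1 * xb t * (xa 1)⁻¹ * (xb t)⁻¹ := by
  ext <;> simp [xc, xa, xb]

theorem y13_comm (t : ZMod 3) : y13 t = xa 1 * y23 t * (xa 1)⁻¹ * (y23 t)⁻¹ := by
  ext <;> simp [y13, xa, y23]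

theorem y12_comm (t : ZMod 3) : y12 t = xc 1 * y23 t * (xc 1)⁻¹ * (y23 t)⁻¹ := by
  ext <;> simp [y12, xc, y23]

theorem y22_comm (t : ZMod 3) : y22 t = xb 1 * y23 (2 * t) * (xb 1)⁻¹ * (y23 (2 * t))⁻¹ := by
  revert t
  decide

theorem y11_comm (t : ZMod 3) : y11 t = xc 1 * y13 (2 * t) * (xc 1)⁻¹ * (y13 (2 * t))⁻¹ := by
  revert t
  decide

theorem zmod_cases (t : ZMod 3) : t = 0 ∨ t = 1 ∨ t = 2 := by
  revert t
  decide

/-- `R3` is generated by `x12`, `x23` and `23` -/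
theorem gen {H : Subgroup P} (h1 : xa 1 ∈ H) (h2 : xb 1 ∈ H) (h3 : y23 1 ∈ H) : R3 ≤ H := by
  have hxa : ∀ t, xa t ∈ H := by
    intro t
    rcases zmod_cases t with rfl | rfl | rfl
    · exact one_mem H
    · exact h1
    · have h : xa 2 = xa 1 * xa 1 := by decide
      rw [h]
      exact mul_mem h1 h1
  have hxb : ∀ t, xb t ∈ H := by
    intro t
    rcases zmod_cases t with rfl | rfl | rfl
    · exact one_mem H
    · exact h2
    · have h : xb 2 = xb 1 * xb 1 := by decide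
      rw [h]
      exact mul_mem h2 h2
  have hy : ∀ t, y23 t ∈ H := by
    intro t
    rcases zmod_cases t with rfl | rfl | rfl
    · exact one_mem H
    · exact h3
    · have h : y23 2 = y23 1 * y23 1 := by decide
      rw [h]
      exact mul_mem h3 h3
  have hxc : ∀ t, xc t ∈ H := by
    intro t
    rw [xc_comm]
    exact mul_mem (mul_mem (mul_mem h1 (hxb t)) (inv_mem h1)) (inv_mem (hxb t))
  have hy13 : ∀ t, y13 t ∈ H := by
    intro t
    rw [y13_comm]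
    exact mul_mem (mul_mem (mul_mem h1 (hy t)) (inv_mem h1)) (inv_mem (hy t))
  have hy12 : ∀ t, y12 t ∈ H := by
    intro t
    rw [y12_comm]
    exact mul_mem (mul_mem (mul_mem (hxc 1) (hy t)) (inv_mem (hxc 1))) (inv_mem (hy t))
  have hy22 : ∀ t, y22 t ∈ H := by
    intro t
    rw [y22_comm]
    exact mul_mem (mul_mem (mul_mem h2 (hy _)) (inv_mem h2)) (inv_mem (hy _))
  have hy11 : ∀ t, y11 t ∈ H := by
    intro t
    rw [y11_comm]
    exact mul_mem (mul_mem (mul_mem (hxc 1) (hy13 _)) (inv_mem (hxc 1))) (inv_mem (hy13 _))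
  intro x hx
  rw [nf hx]
  exact mul_mem (hy11 _) (mul_mem (hy12 _) (mul_mem (hy22 _) (mul_mem (hy13 _) (mul_mem (hy _)
    (mul_mem (hxc _) (mul_mem (hxb _) (hxa _)))))))

theorem xa_mem (t : ZMod 3) : xa t ∈ R3 := rfl
theorem xb_mem (t : ZMod 3) : xb t ∈ R3 := rfl
theorem y23_mem (t : ZMod 3) : y23 t ∈ R3 := rfl

/-- homomorphisms `R3 → F₃` are linear combinations of the coordinates `a`, `b`, `m23` -/
theorem hom_eq {χ : P → ZMod 3} (hχ : ∀ x ∈ R3, ∀ y ∈ R3, χ (x * y) = χ x + χ y) {x : P} (hx : x ∈ R3) :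
    χ x = x.a * χ (xa 1) + x.b * χ (xb 1) + x.m23 * χ (y23 1) := by
  have h0 : χ 1 = 0 := by
    have h := hχ 1 (one_mem _) 1 (one_mem _)
    rw [mul_one] at h
    exact left_eq_add.1 h
  have hi : ∀ x ∈ R3, χ x⁻¹ = - χ x := by
    intro x hx
    have h := hχ x⁻¹ (inv_mem hx) x hx
    rw [inv_mul_cancel, h0] at h
    exact (neg_eq_of_add_eq_zero_left h.symm).symm
  let H : Subgroup P :=
    { carrier := {x | x ∈ R3 ∧ χ x = x.a * χ (xa 1) + x.b * χ (xb 1) + x.m23 * χ (y23 1)}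
      mul_mem' := by
        rintro x y ⟨hx, hx'⟩ ⟨hy, hy'⟩
        have h1 : y.m33 = 0 := hy
        refine ⟨mul_mem hx hy, ?_⟩
        rw [hχ x hx y hy, hx', hy']
        simp only [mul_a, mul_b, mul_m23, h1]
        ring
      one_mem' := ⟨one_mem _, by rw [h0]; simp⟩
      inv_mem' := by
        rintro x ⟨hx, hx'⟩
        have h1 : x.m33 = 0 := hx
        refine ⟨inv_mem hx, ?_⟩
        rw [hi x hx, hx']
        simp only [inv_a, inv_b, inv_m23, h1]
        ring }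
  have h1 : R3 ≤ H := gen ⟨xa_mem 1, by simp [xa]⟩ ⟨xb_mem 1, by simp [xb]⟩ ⟨y23_mem 1, by simp [y23]⟩
  exact (h1 hx).2

/-- two multiplicative maps on `R3` that agree on the generators -/
theorem eq_of_gen {f g : P → P} (hf : ∀ x ∈ R3, ∀ y ∈ R3, f (x * y) = f x * f y)
    (hg : ∀ x ∈ R3, ∀ y ∈ R3, g (x * y) = g x * g y) (h1 : f (xa 1) = g (xa 1)) (h2 : f (xb 1) = g (xb 1))
    (h3 : f (y23 1) = g (y23 1)) {x : P} (hx : x ∈ R3) : f x = g x := by
  have h0 : ∀ f : P → P, (∀ x ∈ R3, ∀ y ∈ R3, f (x * y) = f x * f y) → f 1 = 1 := by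
    intro f hf
    have h := hf 1 (one_mem _) 1 (one_mem _)
    rw [mul_one] at h
    exact left_eq_mul.1 h
  have hi : ∀ f : P → P, (∀ x ∈ R3, ∀ y ∈ R3, f (x * y) = f x * f y) → ∀ x ∈ R3, f x⁻¹ = (f x)⁻¹ := by
    intro f hf x hx
    have h := hf x⁻¹ (inv_mem hx) x hx
    rw [inv_mul_cancel, h0 f hf] at h
    exact eq_inv_of_mul_eq_one_left h.symm
  let H : Subgroup P :=
    { carrier := {x | x ∈ R3 ∧ f x = g x}
      mul_mem' := by
        rintro x y ⟨hx, hx'⟩ ⟨hy, hy'⟩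
        exact ⟨mul_mem hx hy, by rw [hf x hx y hy, hg x hx y hy, hx', hy']⟩
      one_mem' := ⟨one_mem _, by rw [h0 f hf, h0 g hg]⟩
      inv_mem' := by
        rintro x ⟨hx, hx'⟩
        exact ⟨inv_mem hx, by rw [hi f hf x hx, hi g hg x hx, hx']⟩ }
  have h4 : R3 ≤ H := gen ⟨xa_mem 1, h1⟩ ⟨xb_mem 1, h2⟩ ⟨y23_mem 1, h3⟩
  exact (h4 hx).2

/-! ### automorphisms of `R3` -/

def va : R3 := ⟨xa 1, xa_mem 1⟩
def vb : R3 := ⟨xb 1, xb_mem 1⟩
def vm : R3 := ⟨y23 1, y23_mem 1⟩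

/-- an automorphism as a function on `P` -/
noncomputable def fn (α : MulAut R3) : P → P := ex fun x : R3 => ((α x : R3) : P)

theorem fn_coe (α : MulAut R3) (x : R3) : fn α x = (α x : R3) := ex_coe (fun x : R3 => ((α x : R3) : P)) x

theorem fn_apply (α : MulAut R3) {x : P} (hx : x ∈ R3) : fn α x = (α ⟨x, hx⟩ : R3) :=
  ex_apply (fun x : R3 => ((α x : R3) : P)) hx

theorem fn_mem (α : MulAut R3) {x : P} (hx : x ∈ R3) : fn α x ∈ R3 := by
  rw [fn_apply α hx]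
  exact (α _).2

theorem fn_mul (α : MulAut R3) {x y : P} (hx : x ∈ R3) (hy : y ∈ R3) : fn α (x * y) = fn α x * fn α y := by
  rw [fn_apply α hx, fn_apply α hy, fn_apply α (mul_mem hx hy), ← Subgroup.coe_mul, ← map_mul]
  rfl

theorem basic (α : MulAut R3) : (∀ x ∈ R1 ⊓ R3, fn α x ∈ R1) ∧
    ((∀ x ∈ W5, fn α x ∈ W5) ∨ ∃ i, ∀ x ∈ W5, fn α x ∈ DD i) ∧
    (∀ i, (∀ x ∈ DD i, fn α x ∈ W5) ∨ ∃ j, ∀ x ∈ DD i, fn α x ∈ DD j) := by
  obtain ⟨-, -, h3, h4, h5⟩ := Cfsg.Agent.H328.CoP.auts_R3_basic (f := fn α) (fun x hx => fn_mem α hx)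
    (fun x hx y hy => fn_mul α hx hy) (fun x hx y hy h => by
      rw [fn_apply α hx, fn_apply α hy] at h
      exact congrArg Subtype.val (α.injective (Subtype.ext h)))
  exact ⟨h3, h4, h5⟩

theorem al_a0 (α : MulAut R3) {x : R3} (hx : (x : P).a = 0) : ((α x : R3) : P).a = 0 := by
  rw [← fn_coe]
  exact (basic α).1 x ⟨hx, x.2⟩

theorem al_a (α : MulAut R3) (x : R3) : ((α x : R3) : P).a = (x : P).a * ((α va : R3) : P).a := by
  have h := hom_eq (χ := fun x => (fn α x).a) (fun x hx y hy => by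
    simp only [fn_mul α hx hy, mul_a]) x.2
  have h2 : ((α vb : R3) : P).a = 0 := al_a0 α rfl
  have h3 : ((α vm : R3) : P).a = 0 := al_a0 α rfl
  simp only [fn_apply α (xa_mem 1), fn_apply α (xb_mem 1), fn_apply α (y23_mem 1), fn_coe] at h
  rw [h]
  change _ * ((α va : R3) : P).a + _ * ((α vb : R3) : P).a + _ * ((α vm : R3) : P).a = _
  rw [h2, h3]
  ring

theorem al_b (α : MulAut R3) (x : R3) : ((α x : R3) : P).b =
    (x : P).a * ((α va : R3) : P).b + (x : P).b * ((α vb : R3) : P).b + (x : P).m23 * ((α vm : R3) : P).b := by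
  have h := hom_eq (χ := fun x => (fn α x).b) (fun x hx y hy => by
    simp only [fn_mul α hx hy, mul_b]) x.2
  simp only [fn_apply α (xa_mem 1), fn_apply α (xb_mem 1), fn_apply α (y23_mem 1), fn_coe] at h
  exact h

theorem al_m (α : MulAut R3) (x : R3) : ((α x : R3) : P).m23 =
    (x : P).a * ((α va : R3) : P).m23 + (x : P).b * ((α vb : R3) : P).m23 + (x : P).m23 * ((α vm : R3) : P).m23 := by
  have h := hom_eq (χ := fun x => (fn α x).m23) (fun x hx y hy => by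
    have h1 : (fn α y).m33 = 0 := fn_mem α hy
    simp only [fn_mul α hx hy, mul_m23, h1]
    ring) x.2
  simp only [fn_apply α (xa_mem 1), fn_apply α (xb_mem 1), fn_apply α (y23_mem 1), fn_coe] at h
  exact h

/-- the action on `R3 / QL` -/
def ee (α : MulAut R3) : ZMod 3 := ((α va : R3) : P).a

/-- the action on `QL / [QL, R3]` -/
def BB (α : MulAut R3) : Matrix (Fin 2) (Fin 2) (ZMod 3) :=
  !![((α vb : R3) : P).b, ((α vm : R3) : P).b; ((α vb : R3) : P).m23, ((α vm : R3) : P).m23]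

theorem ee_mul (α β : MulAut R3) : ee (α * β) = ee α * ee β := by
  unfold ee
  rw [MulAut.mul_apply, al_a α (β va), mul_comm]

theorem BB_mul (α β : MulAut R3) : BB (α * β) = BB α * BB β := by
  have h1 : ((β vb : R3) : P).a = 0 := al_a0 β rfl
  have h2 : ((β vm : R3) : P).a = 0 := al_a0 β rfl
  unfold BB
  simp only [MulAut.mul_apply, al_b α (β vb), al_b α (β vm), al_m α (β vb), al_m α (β vm), h1, h2]
  ext i j
  fin_cases i <;> fin_cases j <;> simp [Matrix.mul_apply, Fin.sum_univ_two] <;> ring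

theorem ee_one : ee 1 = 1 := rfl

theorem BB_one : BB 1 = 1 := by
  unfold BB
  ext i j
  fin_cases i <;> fin_cases j <;> rfl

noncomputable def eh : MulAut R3 →* ZMod 3 where
  toFun := ee
  map_one' := ee_one
  map_mul' := ee_mul

noncomputable def Bh : MulAut R3 →* Matrix (Fin 2) (Fin 2) (ZMod 3) where
  toFun := BB
  map_one' := BB_one
  map_mul' := BB_mul

/-! ### the kernel is a 3-group -/

theorem isPGroup_R3 : IsPGroup 3 R3 := isPGroup_P.to_subgroup R3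

theorem mem_frattini {x : R3} (h1 : (x : P).a = 0) (h2 : (x : P).b = 0) (h3 : (x : P).m23 = 0) :
    x ∈ frattini R3 := by
  have : Fact (Nat.Prime 3) := ⟨Nat.prime_three⟩
  apply Cfsg.Agent.Lib.FrattiniPGroup.commutator_le_frattini isPGroup_R3
  let D : Subgroup P := (commutator R3).map R3.subtype
  have hD : ∀ u ∈ R3, ∀ v ∈ R3, u * v * u⁻¹ * v⁻¹ ∈ D := by
    intro u hu v hv
    have h := Subgroup.commutator_mem_commutator (Subgroup.mem_top (⟨u, hu⟩ : R3)) (Subgroup.mem_top (⟨v, hv⟩ : R3))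
    exact ⟨_, h, rfl⟩
  have hc : ∀ t, xc t ∈ D := fun t => by rw [xc_comm]; exact hD _ (xa_mem _) _ (xb_mem _)
  have h13 : ∀ t, y13 t ∈ D := fun t => by rw [y13_comm]; exact hD _ (xa_mem _) _ (y23_mem _)
  have h12 : ∀ t, y12 t ∈ D := fun t => by rw [y12_comm]; exact hD _ rfl _ (y23_mem _)
  have h22 : ∀ t, y22 t ∈ D := fun t => by rw [y22_comm]; exact hD _ (xb_mem _) _ (y23_mem _)
  have h11 : ∀ t, y11 t ∈ D := fun t => by rw [y11_comm]; exact hD _ rfl _ rfl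
  have hx : (x : P) ∈ D := by
    have h := nf x.2
    have e1 : xa (x : P).a = 1 := by rw [h1]; rfl
    have e2 : xb (x : P).b = 1 := by rw [h2]; rfl
    have e3 : y23 (x : P).m23 = 1 := by rw [h3]; rfl
    rw [e1, e2, e3, mul_one, mul_one, one_mul] at h
    rw [h]
    exact mul_mem (h11 _) (mul_mem (h12 _) (mul_mem (h22 _) (mul_mem (h13 _) (hc _))))
  obtain ⟨y, hy, hyx⟩ := hx
  have h4 : y = x := Subtype.ext hyx
  rwa [← h4]

/-- automorphisms trivial on `R3 / Φ(R3)` -/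
def S0 : Subgroup (MulAut R3) where
  carrier := {α | ∀ x : R3, ((α x : R3) : P).a = (x : P).a ∧ ((α x : R3) : P).b = (x : P).b ∧ ((α x : R3) : P).m23 = (x : P).m23}
  mul_mem' := by
    intro α β hα hβ x
    rw [MulAut.mul_apply]
    obtain ⟨h1, h2, h3⟩ := hα (β x)
    obtain ⟨h4, h5, h6⟩ := hβ x
    exact ⟨h1.trans h4, h2.trans h5, h3.trans h6⟩
  one_mem' := fun x => ⟨rfl, rfl, rfl⟩
  inv_mem' := by
    intro α hα x
    obtain ⟨h1, h2, h3⟩ := hα (α⁻¹ x)
    rw [MulAut.apply_inv_self] at h1 h2 h3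
    exact ⟨h1.symm, h2.symm, h3.symm⟩

theorem isPGroup_S0 : IsPGroup 3 S0 := by
  have : Fact (Nat.Prime 3) := ⟨Nat.prime_three⟩
  obtain ⟨n, hn⟩ := IsPGroup.iff_card.1 isPGroup_R3
  obtain ⟨r, hr⟩ := isPGroup_R3.index (frattini R3)
  have h := Cfsg.Agent.S4207.result hn hr S0 (fun α hα x => by
    obtain ⟨h1, h2, h3⟩ := hα x
    have hx : (x : P).m33 = 0 := x.2
    apply mem_frattini
    · simp [h1]
    · simp [h2]
    · simp only [Subgroup.coe_mul, Subgroup.coe_inv, mul_m23, inv_m23, inv_m33, h2, h3, hx]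
      ring)
  obtain ⟨k, -, hk⟩ := (Nat.dvd_prime_pow Nat.prime_three).1 h
  exact IsPGroup.of_card hk

theorem entries {κ : MulAut R3} (hB : BB κ = 1) : ((κ vb : R3) : P).b = 1 ∧ ((κ vm : R3) : P).b = 0 ∧
    ((κ vb : R3) : P).m23 = 0 ∧ ((κ vm : R3) : P).m23 = 1 :=
  ⟨congrFun (congrFun hB 0) 0, congrFun (congrFun hB 0) 1, congrFun (congrFun hB 1) 0, congrFun (congrFun hB 1) 1⟩

theorem exists_pow_eq_one {κ : MulAut R3} (hB : BB κ = 1) (he : ee κ = 1) : ∃ k, κ ^ 3 ^ k = 1 := by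
  obtain ⟨h1, h2, h3, h4⟩ := entries hB
  have he' : ((κ va : R3) : P).a = 1 := he
  have ha : ∀ x : R3, ((κ x : R3) : P).a = (x : P).a := fun x => by rw [al_a, he', mul_one]
  have hb : ∀ x : R3, ((κ x : R3) : P).b = (x : P).b + (x : P).a * ((κ va : R3) : P).b := fun x => by
    rw [al_b, h1, h2]; ring
  have hm : ∀ x : R3, ((κ x : R3) : P).m23 = (x : P).m23 + (x : P).a * ((κ va : R3) : P).m23 := fun x => by
    rw [al_m, h3, h4]; ring
  have h5 : κ ^ 3 ∈ S0 := by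
    intro x
    have e : (κ ^ 3) x = κ (κ (κ x)) := rfl
    have h30 : (3 : ZMod 3) = 0 := rfl
    rw [e]
    refine ⟨by rw [ha, ha, ha], ?_, ?_⟩
    · rw [hb (κ (κ x)), hb (κ x), hb x, ha (κ x), ha x]
      linear_combination ((x : P).a * ((κ va : R3) : P).b) * h30
    · rw [hm (κ (κ x)), hm (κ x), hm x, ha (κ x), ha x]
      linear_combination ((x : P).a * ((κ va : R3) : P).m23) * h30
  obtain ⟨k, hk⟩ := isPGroup_S0 ⟨_, h5⟩
  refine ⟨k + 1, ?_⟩
  have h6 : (κ ^ 3) ^ 3 ^ k = 1 := congrArg Subtype.val hk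
  rw [← pow_mul] at h6
  rwa [pow_succ' 3 k]

/-- the kernel of the action of `X` on `R3 / QL` and `QL / [QL, R3]` -/
def K0 (X : Subgroup (MulAut R3)) : Subgroup (MulAut R3) where
  carrier := {κ | κ ∈ X ∧ BB κ = 1 ∧ ee κ = 1}
  mul_mem' := by
    rintro α β ⟨h1, h2, h3⟩ ⟨h4, h5, h6⟩
    exact ⟨mul_mem h1 h4, by rw [BB_mul, h2, h5, one_mul], by rw [ee_mul, h3, h6, one_mul]⟩
  one_mem' := ⟨one_mem _, BB_one, ee_one⟩
  inv_mem' := by
    rintro α ⟨h1, h2, h3⟩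
    refine ⟨inv_mem h1, ?_, ?_⟩
    · have h := BB_mul α α⁻¹
      rw [mul_inv_cancel, h2, one_mul, BB_one] at h
      exact h.symm
    · have h := ee_mul α α⁻¹
      rw [mul_inv_cancel, h3, one_mul, ee_one] at h
      exact h.symm

theorem K0_conj {X : Subgroup (MulAut R3)} : ∀ a ∈ X, ∀ k ∈ K0 X, a * k * a⁻¹ ∈ K0 X := by
  rintro a ha k ⟨h1, h2, h3⟩
  refine ⟨mul_mem (mul_mem ha h1) (inv_mem ha), ?_, ?_⟩
  · rw [BB_mul, BB_mul, h2, mul_one, ← BB_mul, mul_inv_cancel, BB_one]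
  · rw [ee_mul, ee_mul, h3, mul_one, ← ee_mul, mul_inv_cancel, ee_one]

theorem isPGroup_K0 (X : Subgroup (MulAut R3)) : IsPGroup 3 (K0 X) := by
  rintro ⟨κ, -, h2, h3⟩
  obtain ⟨k, hk⟩ := exists_pow_eq_one h2 h3
  exact ⟨k, Subtype.ext hk⟩

/-! ### the system -/

section Sys

variable {F : FusionSystem (⊤ : Subgroup P)}

theorem isPGroup_top : IsPGroup 3 (⊤ : Subgroup P) := isPGroup_P.to_subgroup ⊤

theorem R3_normal (s : P) {x : P} (hx : x ∈ R3) : s * x * s⁻¹ ∈ R3 := by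
  have h1 : x.m33 = 0 := hx
  change (s * x * s⁻¹).m33 = 0
  simp [h1]

theorem R3_fn : F.IsFullyNormalized R3 :=
  H764.Q.fullyNormalized_of_normal le_top fun s _ _ hx => R3_normal s hx

theorem K0_le (hF : F.IsSaturated 3) : K0 (F.autGroup R3) ≤ autInducedBy ⊤ R3 := by
  have : Fact (Nat.Prime 3) := ⟨Nat.prime_three⟩
  exact H759.le_autInducedBy_of_normal (H802.isFullyAutomized_of_isFullyNormalized isPGroup_top hF R3_fn) _
    (fun k hk => hk.1) K0_conj (isPGroup_K0 _)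

theorem mem_normalizer_R3 (s : P) : s ∈ Subgroup.normalizer (R3 : Set P) := by
  rw [Subgroup.mem_normalizer_iff]
  intro x
  refine ⟨fun hx => R3_normal s hx, fun hx => ?_⟩
  have h := R3_normal s⁻¹ hx
  have e : s⁻¹ * (s * x * s⁻¹) * s⁻¹⁻¹ = x := by group
  rwa [e] at h

/-- conjugation by `s` on `R3` -/
noncomputable def cj (s : P) : MulAut R3 := H759.conjAut R3 s (mem_normalizer_R3 s)

theorem coe_cj (s : P) (x : R3) : ((cj s x : R3) : P) = s * x * s⁻¹ := rfl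

theorem cj_mem (s : P) : cj s ∈ F.autGroup R3 :=
  H802.autInducedBy_le_autGroup F le_top ((H802.mem_autInducedBy_iff _ _ _).2 ⟨s, Subgroup.mem_top s, coe_cj s⟩)

theorem BB_cj (s : P) : BB (cj s) = !![1, 0; -s.m33, 1] := by
  unfold BB
  simp only [coe_cj, vb, vm]
  ext i j
  fin_cases i <;> fin_cases j <;> simp [xb, y23]
  ring

theorem ee_cj (s : P) : ee (cj s) = 1 := by
  unfold ee
  simp [coe_cj, va, xa]

theorem BB_pow (n : ℕ) : BB (cj (y33 1) ^ n) = !![1, 0; -(n : ZMod 3), 1] := by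
  induction n with
  | zero =>
    rw [pow_zero, BB_one]
    ext i j
    fin_cases i <;> fin_cases j <;> simp
  | succ n ih =>
    rw [pow_succ, BB_mul, ih, BB_cj]
    ext i j
    fin_cases i <;> fin_cases j <;> simp [y33, Matrix.mul_apply, Fin.sum_univ_two]
    ring

theorem fin_lemma : ∀ p q r s : ZMod 3, q ≠ 0 → p * s - q * r ≠ 0 →
    (!![1, 0; -(1 + q * s), 1] * !![p, q; r, s] * !![1, 0; -(p * s - q * r), 1] *
      ((p * s - q * r) • !![s, -q; -r, p]) * !![1, 0; -(1 - q * s), 1] : Matrix (Fin 2) (Fin 2) (ZMod 3)) =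
      !![0, 1; -1, 0] := by
  decide +kernel

theorem fin_lemma' : ∀ p q r s : ZMod 3, p * s - q * r ≠ 0 →
    ((!![p, q; r, s] : Matrix (Fin 2) (Fin 2) (ZMod 3)) * ((p * s - q * r) • !![s, -q; -r, p])) = 1 := by
  decide +kernel

/-- an element of `Aut_F(R3)` acting like `w3` modulo 3-elements -/
theorem exists_omega (hm : ∃ f, Mp F R3 f ∧ (∀ x ∈ R3, f x ∈ R3) ∧ ∃ x ∈ W5, f x ∉ W5) :
    ∃ ω ∈ F.autGroup R3, BB ω = !![0, 1; -1, 0] ∧ ee ω = 1 := by
  obtain ⟨f, hf, hfm, x, hx, hfx⟩ := hm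
  obtain ⟨α, hα, hαf⟩ := hf.exists_aut hfm
  have hxR : x ∈ R3 := hx.2.2.2
  have h1 : ∃ i, ∀ x ∈ W5, fn α x ∈ DD i := by
    rcases (basic α).2.1 with h | h
    · exact absurd (h x hx) (by rw [fn_apply α hxR, ← hαf]; exact hfx)
    · exact h
  obtain ⟨i, hi⟩ := h1
  have h2 : fn α (y23 1) ∈ DD i := hi _ ⟨rfl, rfl, rfl, rfl⟩
  rw [fn_apply α (y23_mem 1)] at h2
  obtain ⟨-, -, -, h2⟩ := h2
  change ((α vm : R3) : P).m23 = i * ((α vm : R3) : P).b at h2
  have hinv : BB α * BB α⁻¹ = 1 := by rw [← BB_mul, mul_inv_cancel, BB_one]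
  have hinv' : BB α⁻¹ * BB α = 1 := by rw [← BB_mul, inv_mul_cancel, BB_one]
  have hBB : BB α = !![((α vb : R3) : P).b, ((α vm : R3) : P).b; ((α vb : R3) : P).m23, ((α vm : R3) : P).m23] := rfl
  generalize ((α vb : R3) : P).b = p at hBB
  generalize ((α vm : R3) : P).b = q at hBB h2
  generalize ((α vb : R3) : P).m23 = r at hBB
  generalize ((α vm : R3) : P).m23 = s at hBB h2
  have hdet : p * s - q * r ≠ 0 := by
    intro h
    have h3 := congrArg Matrix.det hinv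
    rw [Matrix.det_mul, Matrix.det_one, hBB, Matrix.det_fin_two_of, h, zero_mul] at h3
    exact zero_ne_one h3
  have hq : q ≠ 0 := by
    rintro rfl
    apply hdet
    rw [h2]
    ring
  have hBi : BB α⁻¹ = (p * s - q * r) • !![s, -q; -r, p] := by
    have h3 := fin_lemma' p q r s hdet
    rw [← hBB] at h3
    calc BB α⁻¹ = BB α⁻¹ * (BB α * ((p * s - q * r) • !![s, -q; -r, p])) := by rw [h3, mul_one]
      _ = _ := by rw [← mul_assoc, hinv', one_mul]
  have hval : ∀ t : ZMod 3, ((t.val : ℕ) : ZMod 3) = t := fun t => ZMod.natCast_zmod_val t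
  refine ⟨cj (y33 1) ^ (1 + q * s).val * α * cj (y33 1) ^ (p * s - q * r).val * α⁻¹ * cj (y33 1) ^ (1 - q * s).val,
    mul_mem (mul_mem (mul_mem (mul_mem (pow_mem (cj_mem _) _) hα) (pow_mem (cj_mem _) _)) (inv_mem hα))
      (pow_mem (cj_mem _) _), ?_, ?_⟩
  · rw [BB_mul, BB_mul, BB_mul, BB_mul, BB_pow, BB_pow, BB_pow, hBi, hBB, hval, hval, hval]
    exact fin_lemma p q r s hq hdet
  · have hc : ∀ n : ℕ, ee (cj (y33 1) ^ n) = 1 := fun n => by
      have h3 : eh (cj (y33 1) ^ n) = 1 := by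
        rw [map_pow]
        have h4 : eh (cj (y33 1)) = 1 := ee_cj _
        rw [h4, one_pow]
      exact h3
    rw [ee_mul, ee_mul, ee_mul, ee_mul, hc, hc, hc, mul_one, one_mul, mul_one, ← ee_mul, mul_inv_cancel, ee_one]

theorem mp_fn {α : MulAut R3} (hα : α ∈ F.autGroup R3) : Mp F R3 (fn α) :=
  mp_of_autGroup le_top hα fun _ hx => fn_apply α hx

theorem t3_of_tau (h : Nrm F) {τ : MulAut R3} (hτ : τ ∈ F.autGroup R3) (hB : BB τ = -1) (he : ee τ = 1) :
    Mp F ⊤ (tor 1 (-1) 1) := by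
  have : Fact (Nat.Prime 3) := ⟨Nat.prime_three⟩
  have hrec : F.IsReceptive R3 := H802.isReceptive_of_isFullyNormalized isPGroup_top h.sat R3_fn
  have hBi : BB τ⁻¹ = -1 := by
    have h1 := BB_mul τ τ⁻¹
    rw [mul_inv_cancel, hB, BB_one, neg_mul, one_mul] at h1
    rw [← neg_neg (BB τ⁻¹), ← h1]
  have hei : ee τ⁻¹ = 1 := by
    have h1 := ee_mul τ τ⁻¹
    rw [mul_inv_cancel, he, ee_one, one_mul] at h1
    exact h1.symm
  have hcom : ∀ s : P, ∃ t : P, ∀ x ∈ R3, fn τ (s * x * s⁻¹) = t * fn τ x * t⁻¹ := by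
    intro s
    have h1 : τ * cj s * τ⁻¹ * (cj s)⁻¹ ∈ K0 (F.autGroup R3) := by
      refine ⟨mul_mem (mul_mem (mul_mem hτ (cj_mem _)) (inv_mem hτ)) (inv_mem (cj_mem _)), ?_, ?_⟩
      · rw [BB_mul, BB_mul, BB_mul, hB, hBi, neg_mul, one_mul, mul_neg, mul_one, neg_neg, ← BB_mul,
          mul_inv_cancel, BB_one]
      · rw [ee_mul, ee_mul, ee_mul, he, hei, one_mul, mul_one, ← ee_mul, mul_inv_cancel, ee_one]
    obtain ⟨t, -, ht⟩ := (H802.mem_autInducedBy_iff _ _ _).1 (K0_le h.sat h1)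
    refine ⟨t * s, fun x hx => ?_⟩
    have h2 := ht (cj s (τ ⟨x, hx⟩))
    have h3 : (τ * cj s * τ⁻¹ * (cj s)⁻¹) (cj s (τ ⟨x, hx⟩)) = τ (cj s ⟨x, hx⟩) := by
      have h4 : (τ * cj s * τ⁻¹ * (cj s)⁻¹) * (cj s * τ) = τ * cj s := by group
      exact congrArg (fun a : MulAut R3 => a ⟨x, hx⟩) h4
    rw [h3, coe_cj] at h2
    rw [fn_apply τ (R3_normal s hx), fn_apply τ hx]
    have h5 : cj s ⟨x, hx⟩ = ⟨s * x * s⁻¹, R3_normal s hx⟩ := Subtype.ext (coe_cj s ⟨x, hx⟩)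
    rw [h5] at h2
    rw [h2]
    group
  obtain ⟨N, ψ, hψ, -, hψf, hN⟩ := H753.mp_extend hrec (mp_fn hτ) (fun y => by
    constructor
    · intro hy
      refine ⟨(τ⁻¹ ⟨y, hy⟩ : R3), (τ⁻¹ ⟨y, hy⟩ : R3).2, ?_⟩
      rw [fn_coe, MulAut.apply_inv_self]
    · rintro ⟨x, hx, rfl⟩
      exact fn_mem τ hx)
  have hNtop : N = ⊤ := by
    rw [eq_top_iff]
    intro s _
    obtain ⟨t, ht⟩ := hcom s
    exact hN s (Subgroup.mem_top s) (mem_normalizer_R3 s) ⟨t, Subgroup.mem_top t, ht⟩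
  subst hNtop
  obtain ⟨s, e1, e2, e3, h1, h2, h3, hs⟩ := h.tor ψ hψ
  have he1 : e1 = 1 := by
    have h4 : (ψ (xa 1)).a = 1 := by
      rw [hψf _ (xa_mem 1), fn_apply τ (xa_mem 1)]
      exact he
    rw [hs] at h4
    simpa [tor, xa] using h4
  have he2 : e2 = -1 := by
    have h4 : (ψ (xb 1)).b = -1 := by
      rw [hψf _ (xb_mem 1), fn_apply τ (xb_mem 1)]
      exact congrFun (congrFun hB 0) 0
    rw [hs] at h4
    simpa [tor, xb] using h4
  have he3 : e3 = 1 := by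
    have h4 : (ψ (y23 1)).m23 = -1 := by
      rw [hψf _ (y23_mem 1), fn_apply τ (y23_mem 1)]
      exact congrFun (congrFun hB 1) 1
    rw [hs] at h4
    have h5 : e2 * e3 = -1 := by simpa [tor, y23] using h4
    rw [he2] at h5
    linear_combination -h5
  subst he1 he2 he3
  refine (hψ.comp (mp_conj F (le_refl ⊤) (Subgroup.mem_top s⁻¹)) (fun x _ => Subgroup.mem_top _)).congr fun x _ => ?_
  change _ = s⁻¹ * ψ x * s⁻¹⁻¹
  rw [hs]
  group

theorem t3_of_move (h : Nrm F) (hm : ∃ f, Mp F R3 f ∧ (∀ x ∈ R3, f x ∈ R3) ∧ ∃ x ∈ W5, f x ∉ W5) :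
    Mp F ⊤ (tor 1 (-1) 1) := by
  obtain ⟨ω, hω, hB, he⟩ := exists_omega hm
  refine t3_of_tau h (mul_mem hω hω) ?_ ?_
  · rw [BB_mul, hB]
    decide +kernel
  · rw [ee_mul, he, one_mul]

end Sys

/-! ### `w3` as an automorphism of `R3` -/

theorem w3_mem (x : P) : w3 x ∈ R3 := by
  change (w3 x).m33 = 0
  simp [w3, w3Q, xa]

theorem w3_w3 {x : P} (hx : x ∈ R3) : w3 (w3 x) = tor 1 (-1) 1 x := by
  have h1 : x.m33 = 0 := hx
  ext <;> simp only [w3, w3Q, xa, tor, mul_a, mul_b, mul_c, mul_m11, mul_m12, mul_m22, mul_m13, mul_m23, mul_m33, inv_a, inv_b, inv_c,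
    inv_m11, inv_m12, inv_m22, inv_m13, inv_m23, h1] <;> ring_nf

theorem t3_t3 (x : P) : tor 1 (-1) 1 (tor 1 (-1) 1 x) = x := by
  ext <;> simp [tor]

theorem t3_mul (x y : P) : tor 1 (-1) 1 (x * y) = tor 1 (-1) 1 x * tor 1 (-1) 1 y :=
  tor_mul (by decide) (by decide) x y

theorem t3_mem {x : P} (hx : x ∈ R3) : tor 1 (-1) 1 x ∈ R3 := by
  have h1 : x.m33 = 0 := hx
  change (tor 1 (-1) 1 x).m33 = 0
  simp [tor, h1]

def t3a : MulAut R3 where
  toFun x := ⟨tor 1 (-1) 1 x, t3_mem x.2⟩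
  invFun x := ⟨tor 1 (-1) 1 x, t3_mem x.2⟩
  left_inv _ := Subtype.ext (t3_t3 _)
  right_inv _ := Subtype.ext (t3_t3 _)
  map_mul' _ _ := Subtype.ext (t3_mul _ _)

theorem coe_t3a (x : R3) : ((t3a x : R3) : P) = tor 1 (-1) 1 x := rfl

def w3a : MulAut R3 where
  toFun x := ⟨w3 x, w3_mem _⟩
  invFun x := ⟨w3 (tor 1 (-1) 1 x), w3_mem _⟩
  left_inv x := Subtype.ext (by
    change w3 (tor 1 (-1) 1 (w3 x)) = x
    rw [← w3_w3 (w3_mem _), w3_w3 (w3_mem _), w3_w3 x.2, t3_t3])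
  right_inv x := Subtype.ext (by
    change w3 (w3 (tor 1 (-1) 1 x)) = x
    rw [w3_w3 (t3_mem x.2), t3_t3])
  map_mul' x y := Subtype.ext (w3_mul x.2 y.2)

theorem coe_w3a (x : R3) : ((w3a x : R3) : P) = w3 x := rfl

theorem w3a_sq : w3a * w3a = t3a := MulEquiv.ext fun x => Subtype.ext (w3_w3 x.2)

theorem t3a_sq : t3a * t3a = 1 := MulEquiv.ext fun x => Subtype.ext (t3_t3 x)

theorem BB_w3a : BB w3a = !![0, 1; -1, 0] := by
  unfold BB
  simp only [coe_w3a, vb, vm]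
  decide

theorem ee_w3a : ee w3a = 1 := by
  unfold ee
  simp only [coe_w3a, va]
  decide

theorem BB_t3a : BB t3a = -1 := by
  unfold BB
  simp only [coe_t3a, vb, vm]
  decide

theorem ee_t3a : ee t3a = 1 := by
  unfold ee
  simp only [coe_t3a, va]
  decide

/-! ### automorphisms commuting with `t3`, trivial on the two sections, are inner -/

theorem cube_lemma : ∀ p q r : ZMod 3, (⟨1, 0, 0, p, q, r, 0, 0, 0⟩ : P) ^ 3 = 1 → r = 0 := by
  decide +kernel

theorem conj_lemma : ∀ p q : ZMod 3, ∃ s t : ZMod 3,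
    (⟨0, 0, 0, 0, s, t, 0, 0, 0⟩ : P) * xa 1 * (⟨0, 0, 0, 0, s, t, 0, 0, 0⟩ : P)⁻¹ = ⟨1, 0, 0, p, q, 0, 0, 0, 0⟩ := by
  decide +kernel

theorem eq_neg_zero {t : ZMod 3} (h : t = -t) : t = 0 := by
  revert t
  decide

theorem cj_mul (s t : P) : cj (s * t) = cj s * cj t := by
  apply MulEquiv.ext
  intro x
  apply Subtype.ext
  rw [MulAut.mul_apply, coe_cj, coe_cj, coe_cj]
  group

theorem comm_cj {d : P} (hd : tor 1 (-1) 1 d = d) : t3a * cj d = cj d * t3a := by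
  apply MulEquiv.ext
  intro x
  apply Subtype.ext
  rw [MulAut.mul_apply, MulAut.mul_apply, coe_t3a, coe_cj, coe_cj, coe_t3a, t3_mul, t3_mul, hd]
  congr 1
  have h : tor 1 (-1) 1 d * tor 1 (-1) 1 d⁻¹ = 1 := by
    rw [← t3_mul, mul_inv_cancel]
    decide
  rw [hd] at h
  exact eq_inv_of_mul_eq_one_right h

theorem inner_aux {h : MulAut R3} (hB : BB h = 1) (hc : t3a * h = h * t3a) (ha : h va = va) :
    ∃ β, h = cj (xa β) := by
  have hcx : ∀ x : R3, tor 1 (-1) 1 (h x : R3) = (h (t3a x) : R3) := fun x => by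
    have h1 := congrArg (fun a : MulAut R3 => ((a x : R3) : P)) hc
    exact h1
  obtain ⟨b1, b2, b3, b4⟩ := entries hB
  have va0 : ((h vb : R3) : P).a = 0 := al_a0 h rfl
  have wa0 : ((h vm : R3) : P).a = 0 := al_a0 h rfl
  have v33 : ((h vb : R3) : P).m33 = 0 := (h vb).2
  have w33 : ((h vm : R3) : P).m33 = 0 := (h vm).2
  obtain ⟨-, hW, hD⟩ := basic h
  have v13 : ((h vb : R3) : P).m13 = 0 := by
    have hmem : xb 1 ∈ DD 0 := ⟨rfl, rfl, by decide, by decide⟩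
    rcases hD 0 with h1 | ⟨j, h1⟩
    · have h2 := (h1 _ hmem).2.1
      rw [fn_apply h (xb_mem 1)] at h2
      exact absurd (b1.symm.trans h2) (by decide)
    · have h2 := h1 _ hmem
      rw [fn_apply h (xb_mem 1)] at h2
      obtain ⟨-, -, h3, h4⟩ := h2
      change ((h vb : R3) : P).m13 = j * ((h vb : R3) : P).c at h3
      change ((h vb : R3) : P).m23 = j * ((h vb : R3) : P).b at h4
      rw [b1, b3, mul_one] at h4
      rw [h3, ← h4, zero_mul]
  have wc : ((h vm : R3) : P).c = 0 := by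
    have hmem : y23 1 ∈ W5 := ⟨rfl, rfl, rfl, rfl⟩
    rcases hW with h1 | ⟨j, h1⟩
    · have h2 := (h1 _ hmem).2.2.1
      rw [fn_apply h (y23_mem 1)] at h2
      exact h2
    · have h2 := (h1 _ hmem).2.2.2
      rw [fn_apply h (y23_mem 1)] at h2
      change ((h vm : R3) : P).m23 = j * ((h vm : R3) : P).b at h2
      rw [b2, b4, mul_zero] at h2
      exact absurd h2 (by decide)
  have w13 : ((h vm : R3) : P).m13 = ((h vb : R3) : P).c := by
    have hmem : xb 1 * y23 1 ∈ DD 1 := by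
      refine ⟨by decide, by decide, by decide, by decide⟩
    have hv : fn h (xb 1 * y23 1) = (h vb : R3) * (h vm : R3) := by
      rw [fn_mul h (xb_mem 1) (y23_mem 1), fn_apply h (xb_mem 1), fn_apply h (y23_mem 1)]
      rfl
    rcases hD 1 with h1 | ⟨j, h1⟩
    · have h2 := (h1 _ hmem).2.1
      rw [hv, mul_b, b1, b2] at h2
      exact absurd h2 (by decide)
    · have h2 := h1 _ hmem
      rw [hv] at h2
      obtain ⟨-, -, h3, h4⟩ := h2
      simp only [mul_m13, mul_m23, mul_c, mul_b, va0, v13, wc, w33, b1, b2, b3, b4] at h3 h4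
      have hj : j = 1 := by linear_combination -h4
      rw [hj] at h3
      linear_combination h3
  -- the elements inverted by `t3`
  have hvi : tor 1 (-1) 1 (h vb : R3) = ((h vb : R3) : P)⁻¹ := by
    rw [hcx]
    have h1 : t3a vb = vb⁻¹ := Subtype.ext (by change tor 1 (-1) 1 (xb 1) = (xb 1)⁻¹; decide)
    rw [h1, map_inv]
    rfl
  have hwi : tor 1 (-1) 1 (h vm : R3) = ((h vm : R3) : P)⁻¹ := by
    rw [hcx]
    have h1 : t3a vm = vm⁻¹ := Subtype.ext (by change tor 1 (-1) 1 (y23 1) = (y23 1)⁻¹; decide)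
    rw [h1, map_inv]
    rfl
  have v11 : ((h vb : R3) : P).m11 = 0 := by
    have h1 := congrArg P.m11 hvi
    simp only [tor, inv_m11, va0, v13, v33, b3] at h1
    apply eq_neg_zero
    linear_combination h1
  have v12 : ((h vb : R3) : P).m12 = 0 := by
    have h1 := congrArg P.m12 hvi
    simp only [tor, inv_m12, va0, v13, v33, b3] at h1
    apply eq_neg_zero
    linear_combination h1
  have v22 : ((h vb : R3) : P).m22 = 0 := by
    have h1 := congrArg P.m22 hvi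
    simp only [tor, inv_m22, v33, b3] at h1
    apply eq_neg_zero
    linear_combination h1
  have w11 : ((h vm : R3) : P).m11 = 0 := by
    have h1 := congrArg P.m11 hwi
    simp only [tor, inv_m11, wa0, wc, w33, b2] at h1
    apply eq_neg_zero
    linear_combination h1
  have w12 : ((h vm : R3) : P).m12 = 0 := by
    have h1 := congrArg P.m12 hwi
    simp only [tor, inv_m12, wa0, wc, w33, b2] at h1
    apply eq_neg_zero
    linear_combination h1
  have w22 : ((h vm : R3) : P).m22 = 0 := by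
    have h1 := congrArg P.m22 hwi
    simp only [tor, inv_m22, w33, b2] at h1
    apply eq_neg_zero
    linear_combination h1
  refine ⟨((h vb : R3) : P).c, ?_⟩
  generalize hβ : ((h vb : R3) : P).c = β at w13
  have hv : ((h vb : R3) : P) = ⟨0, 1, β, 0, 0, 0, 0, 0, 0⟩ := by
    ext
    · exact va0
    · exact b1
    · exact hβ
    · exact v11
    · exact v12
    · exact v22
    · exact v13
    · exact b3
    · exact v33
  have hw : ((h vm : R3) : P) = ⟨0, 0, 0, 0, 0, 0, β, 1, 0⟩ := by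
    ext
    · exact wa0
    · exact b2
    · exact wc
    · exact w11
    · exact w12
    · exact w22
    · exact w13
    · exact b4
    · exact w33
  apply MulEquiv.ext
  intro x
  apply Subtype.ext
  rw [← fn_coe, ← fn_coe]
  refine eq_of_gen (fun x hx y hy => fn_mul h hx hy) (fun x hx y hy => fn_mul _ hx hy) ?_ ?_ ?_ x.2
  · rw [fn_apply _ (xa_mem 1), fn_apply _ (xa_mem 1), coe_cj]
    have h1 : ((h ⟨xa 1, xa_mem 1⟩ : R3) : P) = xa 1 := congrArg Subtype.val ha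
    rw [h1]
    change xa 1 = xa β * xa 1 * (xa β)⁻¹
    clear hv hw hβ w13 h1
    revert β
    decide
  · rw [fn_apply _ (xb_mem 1), fn_apply _ (xb_mem 1), coe_cj]
    change ((h vb : R3) : P) = xa β * xb 1 * (xa β)⁻¹
    rw [hv]
    clear hv hw hβ w13
    revert β
    decide
  · rw [fn_apply _ (y23_mem 1), fn_apply _ (y23_mem 1), coe_cj]
    change ((h vm : R3) : P) = xa β * y23 1 * (xa β)⁻¹
    rw [hw]
    clear hv hw hβ w13
    revert β
    decide

theorem inner {h : MulAut R3} (hB : BB h = 1) (he : ee h = 1) (hc : t3a * h = h * t3a) :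
    ∃ d ∈ R3, h = cj d := by
  have hcx : ∀ x : R3, tor 1 (-1) 1 (h x : R3) = (h (t3a x) : R3) := fun x => by
    have h1 := congrArg (fun a : MulAut R3 => ((a x : R3) : P)) hc
    exact h1
  have hu : tor 1 (-1) 1 (h va : R3) = (h va : R3) := by
    rw [hcx]
    have h1 : t3a va = va := Subtype.ext (by change tor 1 (-1) 1 (xa 1) = xa 1; decide)
    rw [h1]
  have ua : ((h va : R3) : P).a = 1 := he
  have ub : ((h va : R3) : P).b = 0 := by
    have h1 := congrArg P.b hu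
    simp only [tor] at h1
    apply eq_neg_zero
    linear_combination -h1
  have uc : ((h va : R3) : P).c = 0 := by
    have h1 := congrArg P.c hu
    simp only [tor] at h1
    apply eq_neg_zero
    linear_combination -h1
  have u13 : ((h va : R3) : P).m13 = 0 := by
    have h1 := congrArg P.m13 hu
    simp only [tor] at h1
    apply eq_neg_zero
    linear_combination -h1
  have u23 : ((h va : R3) : P).m23 = 0 := by
    have h1 := congrArg P.m23 hu
    simp only [tor] at h1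
    apply eq_neg_zero
    linear_combination -h1
  have u33 : ((h va : R3) : P).m33 = 0 := (h va).2
  generalize hp : ((h va : R3) : P).m11 = p
  generalize hq : ((h va : R3) : P).m12 = q
  generalize hr : ((h va : R3) : P).m22 = r
  have hu' : ((h va : R3) : P) = ⟨1, 0, 0, p, q, r, 0, 0, 0⟩ := by
    ext
    · exact ua
    · exact ub
    · exact uc
    · exact hp
    · exact hq
    · exact hr
    · exact u13
    · exact u23
    · exact u33
  have hr0 : r = 0 := by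
    apply cube_lemma p q r
    rw [← hu', ← Subgroup.coe_pow, ← map_pow]
    have h1 : va ^ 3 = 1 := Subtype.ext (by change xa 1 ^ 3 = 1; decide)
    rw [h1, map_one]
    rfl
  rw [hr0] at hu'
  obtain ⟨s, t, hst⟩ := conj_lemma p q
  set d : P := ⟨0, 0, 0, 0, s, t, 0, 0, 0⟩ with hd
  have hd3 : tor 1 (-1) 1 d = d := by
    rw [hd]
    ext <;> simp [tor]
  have hdc := comm_cj hd3
  have hBd : BB (cj d) = 1 := by
    have h33 : d.m33 = 0 := rfl
    rw [BB_cj, h33]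
    decide
  obtain ⟨β, hβ⟩ := inner_aux (h := (cj d)⁻¹ * h) (by
      have h1 := BB_mul (cj d) ((cj d)⁻¹ * h)
      rw [mul_inv_cancel_left, hBd, one_mul, hB] at h1
      exact h1.symm) (by
      have h1 : t3a * (cj d)⁻¹ = (cj d)⁻¹ * t3a := by
        rw [mul_inv_eq_iff_eq_mul, mul_assoc, hdc, inv_mul_cancel_left]
      rw [← mul_assoc, h1, mul_assoc, hc, mul_assoc]) (by
      rw [MulAut.mul_apply]
      have h1 : h va = cj d va := Subtype.ext (by rw [hu', coe_cj]; exact hst.symm)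
      rw [h1, MulAut.inv_apply_self])
  refine ⟨d * xa β, mul_mem rfl (xa_mem _), ?_⟩
  rw [cj_mul, ← hβ, mul_inv_cancel_left]

/-! ### making `ω` commute with `t3` -/

theorem fix_comm {G : Type*} [Group G] {k t : G} (ht : t * t = 1) (hkt : k * t * (k * t) = 1) {n : ℕ} (hn : k ^ n = 1)
    (hodd : Odd n) : ∃ m : ℕ, (k ^ m)⁻¹ * (k * t) * k ^ m = t := by
  obtain ⟨m, rfl⟩ := hodd
  refine ⟨m + 1, ?_⟩
  have h1 : t * k = k⁻¹ * t := by
    rw [eq_inv_mul_iff_mul_eq]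
    have h2 : k * (t * k) * t = 1 := by
      rw [← hkt]; group
    rw [mul_eq_one_iff_eq_inv] at h2
    rw [h2]
    exact (eq_inv_of_mul_eq_one_left ht).symm
  have h2 : ∀ j : ℕ, t * k ^ j = (k ^ j)⁻¹ * t := by
    intro j
    induction j with
    | zero => simp
    | succ j ih =>
      rw [pow_succ, ← mul_assoc, ih, mul_assoc, h1]
      group
  rw [mul_assoc, mul_assoc, h2]
  have h3 : (k ^ (m + 1))⁻¹ * (k * ((k ^ (m + 1))⁻¹ * t)) = (k ^ (2 * m + 1))⁻¹ * t := by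
    group
  rw [h3, hn, inv_one, one_mul]

section Sys

variable {F : FusionSystem (⊤ : Subgroup P)}

theorem w3_of_move (h : Nrm F) (hm : ∃ f, Mp F R3 f ∧ (∀ x ∈ R3, f x ∈ R3) ∧ ∃ x ∈ W5, f x ∉ W5) : Mp F R3 w3 := by
  obtain ⟨ω, hω, hB, he⟩ := exists_omega hm
  have ht : t3a ∈ F.autGroup R3 :=
    ((t3_of_move h hm).res le_top).mem_autGroup fun x hx => rfl
  set k : MulAut R3 := ω * t3a * ω⁻¹ * t3a⁻¹ with hk
  have hkt : k * t3a = ω * t3a * ω⁻¹ := by rw [hk]; group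
  have hBB : BB ω * BB ω⁻¹ = 1 := by rw [← BB_mul, mul_inv_cancel, BB_one]
  have hee : ee ω * ee ω⁻¹ = 1 := by rw [← ee_mul, mul_inv_cancel, ee_one]
  have hti : t3a⁻¹ = t3a := inv_eq_of_mul_eq_one_left t3a_sq
  have hkB : BB k = 1 := by
    have h1 : BB ω * (-1) * BB ω⁻¹ * (-1) = BB ω * BB ω⁻¹ := by simp
    rw [hk, hti, BB_mul, BB_mul, BB_mul, BB_t3a, h1, hBB]
  have hke : ee k = 1 := by
    rw [hk, hti, ee_mul, ee_mul, ee_mul, ee_t3a, mul_one, mul_one, hee]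
  obtain ⟨n, hn⟩ := exists_pow_eq_one hkB hke
  have hkk : k * t3a * (k * t3a) = 1 := by
    rw [hkt]
    have h1 : ω * t3a * ω⁻¹ * (ω * t3a * ω⁻¹) = ω * (t3a * t3a) * ω⁻¹ := by group
    rw [h1, t3a_sq]
    group
  obtain ⟨m, hm'⟩ := fix_comm t3a_sq hkk hn (Odd.pow (by decide))
  have hkX : k ∈ F.autGroup R3 := mul_mem (mul_mem (mul_mem hω ht) (inv_mem hω)) (inv_mem ht)
  set κ : MulAut R3 := (k ^ m)⁻¹ with hκ
  have hκX : κ ∈ F.autGroup R3 := inv_mem (pow_mem hkX m)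
  have hk0 : k ∈ K0 (F.autGroup R3) := ⟨hkX, hkB, hke⟩
  have hκ0 : κ ∈ K0 (F.autGroup R3) := inv_mem (pow_mem hk0 m)
  set ω' : MulAut R3 := κ * ω with hω'
  have hω'X : ω' ∈ F.autGroup R3 := mul_mem hκX hω
  have hcomm : t3a * ω' = ω' * t3a := by
    have h1 : κ * (ω * t3a * ω⁻¹) * κ⁻¹ = t3a := by
      rw [← hkt, hκ, inv_inv]
      exact hm'
    have h2 : ω' * t3a = κ * (ω * t3a * ω⁻¹) * κ⁻¹ * ω' := by rw [hω']; group
    rw [h2, h1]
  have hBω' : BB ω' = !![0, 1; -1, 0] := by rw [hω', BB_mul, hκ0.2.1, one_mul, hB]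
  have heω' : ee ω' = 1 := by rw [hω', ee_mul, hκ0.2.2, one_mul, he]
  have hw3c : t3a * w3a = w3a * t3a := by rw [← w3a_sq]; group
  obtain ⟨d, hd, hh⟩ := inner (h := w3a⁻¹ * ω') (by
      have h1 : BB w3a⁻¹ * BB w3a = 1 := by rw [← BB_mul, inv_mul_cancel, BB_one]
      rw [BB_mul, hBω', ← BB_w3a, h1]) (by
      have h1 : ee w3a⁻¹ * ee w3a = 1 := by rw [← ee_mul, inv_mul_cancel, ee_one]
      rw [ee_w3a, mul_one] at h1
      rw [ee_mul, heω', h1, mul_one]) (by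
      have h1 : t3a * w3a⁻¹ = w3a⁻¹ * t3a := by
        rw [mul_inv_eq_iff_eq_mul, mul_assoc, hw3c, inv_mul_cancel_left]
      rw [← mul_assoc, h1, mul_assoc, hcomm, ← mul_assoc])
  have h3 : w3a = ω' * (cj d)⁻¹ := by
    rw [← hh]; group
  have h4 : w3a ∈ F.autGroup R3 := by
    rw [h3]
    exact mul_mem hω'X (inv_mem (cj_mem d))
  exact mp_of_autGroup le_top h4 fun x hx => rfl

end Sys

end Cfsg.Agent.H62.Co8
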