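import Mathlib
import Cfsg.Agent.H668.Five.Rows
import Cfsg.Agent.H595.NormalRank
import Cfsg.Agent.S0915

/-!
# `k(B₀) = 5`, `p = 2`: the rows `Good4`

A group whose socle has an involution `z` such that `C(z)` has a normal Sylow `2`-subgroup and is not
`2`-nilpotent, and an element of order `4`, has at least six characters in the principal `2`-block.

* `rank_of_normal_sylow` : `l(B₀(X))` is the number of classes of a quotient of odd order of `X`, if `X`
  has a normal Sylow `2`-subgroup;
* `three_le_rank` : hence it is at least `3`, unless it is `1`;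
* `good4_six`.
-/

set_option autoImplicit false

open Cfsg

namespace Cfsg.Agent.H62.Good4Six

open Cfsg.Agent.H634.ZJ Cfsg.Agent.H634.HypS Cfsg.Agent.H634.Cols Cfsg.Agent.H634.TwoA
open Cfsg.Agent.H668.Five

universe u

/-- A nontrivial group of odd order has at least three conjugacy classes. -/
theorem three_le_classes {R : Type*} [Group R] [Finite R] (ho : ¬ 2 ∣ Nat.card R)
    (h1 : 2 ≤ Nat.card (ConjClasses R)) : 3 ≤ Nat.card (ConjClasses R) := by
  classical
  have : Fintype (ConjClasses R) := Fintype.ofFinite _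
  obtain ⟨x, hx⟩ : ∃ x : R, x ≠ 1 := by
    by_contra hc
    push Not at hc
    have h2 : Nat.card (ConjClasses R) ≤ 1 := by
      rw [Finite.card_le_one_iff_subsingleton]
      refine ⟨fun a b => ?_⟩
      obtain ⟨a, rfl⟩ := ConjClasses.exists_rep a
      obtain ⟨b, rfl⟩ := ConjClasses.exists_rep b
      rw [hc a, hc b]
    omega
  have hodd : ∀ y : R, Odd (orderOf y) := fun y => by
    rw [← Nat.not_even_iff_odd, even_iff_two_dvd]
    exact fun h => ho (h.trans (orderOf_dvd_natCard y))
  have hsq : ∀ y : R, y * y = 1 → y = 1 := by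
    intro y hy
    have h2 : orderOf y ∣ 2 := orderOf_dvd_of_pow_eq_one (by rw [pow_two, hy])
    rcases (Nat.dvd_prime Nat.prime_two).1 h2 with h3 | h3
    · exact orderOf_eq_one_iff.1 h3
    · exact absurd (h3 ▸ hodd y) (by decide)
  have hreal : ¬ IsConj x x⁻¹ := by
    intro h
    obtain ⟨c, hc⟩ := isConj_iff.1 h
    have h2 : Commute (c ^ 2) x := by
      have h3 : c ^ 2 * x * (c ^ 2)⁻¹ = x := by
        calc c ^ 2 * x * (c ^ 2)⁻¹ = c * (c * x * c⁻¹) * c⁻¹ := by rw [pow_two]; group
          _ = (c * x * c⁻¹)⁻¹ := by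
            rw [hc]
            have : c * x⁻¹ * c⁻¹ = (c * x * c⁻¹)⁻¹ := by group
            rw [this, hc]
          _ = x := by rw [hc, inv_inv]
      exact mul_inv_eq_iff_eq_mul.1 h3
    obtain ⟨m, hm⟩ := exists_pow_eq_self_of_coprime (x := c) (n := 2)
      (Nat.coprime_two_left.2 (hodd c))
    have h3 : Commute c x := by
      rw [← hm]
      exact h2.pow_left m
    have h4 : x = x⁻¹ := by
      rw [← hc, h3.eq, mul_inv_cancel_right]
    apply hx
    apply hsq
    nth_rw 2 [h4]
    exact mul_inv_cancel x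
  have hcard : ({ConjClasses.mk 1, ConjClasses.mk x, ConjClasses.mk x⁻¹} :
      Finset (ConjClasses R)).card = 3 := by
    rw [Finset.card_eq_three]
    refine ⟨_, _, _, ?_, ?_, ?_, rfl⟩
    · intro h
      exact hx (isConj_one_right.1 (ConjClasses.mk_eq_mk_iff_isConj.1 h))
    · intro h
      exact hx (inv_eq_one.1 (isConj_one_right.1 (ConjClasses.mk_eq_mk_iff_isConj.1 h)))
    · intro h
      exact hreal (ConjClasses.mk_eq_mk_iff_isConj.1 h)
  rw [← hcard, Nat.card_eq_fintype_card]
  exact Finset.card_le_univ _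

/-- A group with a normal Sylow `p`-subgroup is `p`-solvable. -/
theorem isPSolvable_of_normal {X : Type*} [Group X] [Finite X] {p : ℕ} (hp : p.Prime)
    (Q : Subgroup X) [hQ : Q.Normal] (hQp : IsPGroup p ↥Q) (hQi : ¬ p ∣ Q.index) :
    IsPSolvable p X := by
  have : Fact p.Prime := ⟨hp⟩
  refine ⟨2, ![⊥, Q, ⊤], rfl, rfl, ?_, ?_, ?_⟩
  · intro i j hij
    fin_cases i <;> fin_cases j <;> first | exact le_refl _ | exact bot_le | exact le_top | skip
    all_goals exact absurd hij (by decide)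
  · intro i
    fin_cases i
    · show (⊥ : Subgroup X).Normal
      infer_instance
    · exact hQ
    · show (⊤ : Subgroup X).Normal
      infer_instance
  · intro i
    fin_cases i
    · left
      show ∃ m, (⊥ : Subgroup X).relIndex Q = p ^ m
      rw [Subgroup.relIndex_bot_left]
      exact IsPGroup.iff_card.1 hQp
    · right
      show (Q.relIndex (⊤ : Subgroup X)).Coprime p
      rw [Subgroup.relIndex_top_right]
      exact ((Nat.Prime.coprime_iff_not_dvd hp).2 hQi).symm

/-- **The rank of the principal block of a group with a normal Sylow `p`-subgroup** is the number of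
classes of some `p'`-group. -/
theorem rank_of_normal_sylow {X : Type u} [Group X] [Finite X] {M : Ideal AlgInt} {p : ℕ}
    (hM : IsPModular p M) (Q : Subgroup X) [hQ : Q.Normal] (hQp : IsPGroup p ↥Q)
    (hQi : ¬ p ∣ Q.index) :
    ∃ (Y : Type u) (_ : Group Y) (_ : Finite Y), ¬ p ∣ Nat.card Y ∧
      blockRank p (principalBlock M X) = Nat.card (ConjClasses Y) := by
  have hp : p.Prime := hM.1
  have : Fact p.Prime := ⟨hp⟩
  have hN : (pPrimeCore p X).Normal := Lib.Cores.pPrimeCore_normal p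
  have hNc : ¬ p ∣ Nat.card (pPrimeCore p X) :=
    (Nat.Prime.coprime_iff_not_dvd hp).1 (Lib.Cores.pPrimeCore_coprime (G := X) p).symm
  rw [H595.NormalRank.rank_quot hM (pPrimeCore p X) hNc]
  have hcore : pPrimeCore p (X ⧸ pPrimeCore p X) = ⊥ :=
    Lib.Cores.pPrimeCore_quotient_pPrimeCore (G := X) p
  let π := QuotientGroup.mk' (pPrimeCore p X)
  have hπ : Function.Surjective π := QuotientGroup.mk'_surjective _
  have hQ'n : (Q.map π).Normal := hQ.map _ hπ
  have hQ'p : IsPGroup p ↥(Q.map π) := hQp.map _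
  have hQ'i : ¬ p ∣ (Q.map π).index := fun h =>
    hQi (h.trans (Q.index_map_dvd hπ))
  have hs : IsPSolvable p (X ⧸ pPrimeCore p X) := isPSolvable_of_normal hp (Q.map π) hQ'p hQ'i
  have h1 := H595.NormalRank.rank_normal_sylow (Q.map π) hQ'p hQ'i
    (principalBlock M (X ⧸ pPrimeCore p X))
    (fun θ => S0915.result p M hM hs hcore
      ⟨(1 : (X ⧸ pPrimeCore p X) → ℂ), Characters.Core.isIrr_one⟩ _)
  refine ⟨(X ⧸ pPrimeCore p X) ⧸ (Q.map π), inferInstance, inferInstance, ?_, ?_⟩
  · exact hQ'i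
  · rw [h1, Characters.Core.card_irr]

/-- A group with a normal Sylow `2`-subgroup and rank at least `2` has rank at least `3`. -/
theorem three_le_rank {X : Type*} [Group X] [Finite X] {M : Ideal AlgInt}
    (hM : IsPModular 2 M) (Q : Subgroup X) [hQ : Q.Normal] (hQp : IsPGroup 2 ↥Q)
    (hQi : ¬ 2 ∣ Q.index) (h2 : 2 ≤ blockRank 2 (principalBlock M X)) :
    3 ≤ blockRank 2 (principalBlock M X) := by
  obtain ⟨Y, i1, i2, hY, he⟩ := rank_of_normal_sylow hM Q hQp hQi
  rw [he] at h2 ⊢
  exact three_le_classes hY h2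

section main

variable {G : Type*} [Group G] [Finite G]

omit [Finite G] in
/-- If `[G : S]` is odd and `C_S(z)` has a normal Sylow `2`-subgroup, then so has `C_G(z)`. -/
theorem exists_normal_sylow {S : Subgroup G} [hS : S.Normal] (hi : ¬ 2 ∣ S.index) (z : S)
    (Q : Subgroup ↥(Subgroup.centralizer ({z} : Set S))) [hQ : Q.Normal] (hQp : IsPGroup 2 ↥Q)
    (hQi : ¬ 2 ∣ Q.index) :
    ∃ Q' : Subgroup ↥(Subgroup.centralizer ({(z : G)} : Set G)), Q'.Normal ∧ IsPGroup 2 ↥Q' ∧
      ¬ 2 ∣ Q'.index := by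
  have hf2 : Fact (Nat.Prime 2) := ⟨Nat.prime_two⟩
  let f : ↥(Subgroup.centralizer ({z} : Set S)) →* ↥(Subgroup.centralizer ({(z : G)} : Set G)) :=
    { toFun := fun a => ⟨(a.1 : G), by
        rw [Subgroup.mem_centralizer_singleton_iff]
        have := Subgroup.mem_centralizer_singleton_iff.1 a.2
        exact congrArg Subtype.val this⟩
      map_one' := rfl
      map_mul' := fun a b => rfl }
  have hf : Function.Injective f := by
    intro a b hab
    have h1 : ((a.1 : S) : G) = ((b.1 : S) : G) := congrArg (fun c => (c.1 : G)) hab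
    exact Subtype.ext (Subtype.ext h1)
  have hT : f.range = S.subgroupOf (Subgroup.centralizer ({(z : G)} : Set G)) := by
    ext c
    rw [MonoidHom.mem_range, Subgroup.mem_subgroupOf]
    constructor
    · rintro ⟨a, rfl⟩
      exact (a.1 : S).2
    · intro hc
      refine ⟨⟨⟨(c : G), hc⟩, ?_⟩, rfl⟩
      rw [Subgroup.mem_centralizer_singleton_iff]
      apply Subtype.ext
      exact Subgroup.mem_centralizer_singleton_iff.1 c.2
  have hTn : (f.range).Normal := by
    rw [hT]
    infer_instance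
  have hTi : ¬ 2 ∣ f.range.index := by
    rw [hT]
    exact fun h => hi (h.trans (Subgroup.relIndex_dvd_index_of_normal S _))
  have hidx : ¬ 2 ∣ (Q.map f).index := by
    have h1 : (Q.map f).relIndex f.range * f.range.index = (Q.map f).index := by
      apply Subgroup.relIndex_mul_index
      rw [MonoidHom.range_eq_map]
      exact Subgroup.map_mono le_top
    have h2 : (Q.map f).relIndex f.range = Q.index := by
      rw [MonoidHom.range_eq_map, Subgroup.relIndex_map_map_of_injective _ _ hf,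
        Subgroup.relIndex_top_right]
    rw [← h1, h2, Nat.prime_two.dvd_mul]
    exact fun h => h.elim hQi hTi
  -- the elements of `Q` are the `2`-elements
  have hQmem : ∀ a : ↥(Subgroup.centralizer ({z} : Set S)), (∃ k, orderOf a = 2 ^ k) → a ∈ Q := by
    rintro a ⟨k, hk⟩
    have h1 : orderOf (QuotientGroup.mk a : _ ⧸ Q) ∣ 2 ^ k := by
      rw [← hk]
      exact orderOf_map_dvd (QuotientGroup.mk' Q) a
    have h2 : orderOf (QuotientGroup.mk a : _ ⧸ Q) ∣ Q.index := orderOf_dvd_natCard _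
    have h3 : orderOf (QuotientGroup.mk a : _ ⧸ Q) = 1 :=
      Nat.dvd_one.1 ((Nat.Coprime.gcd_eq_one (Nat.Coprime.pow_left k
        ((Nat.Prime.coprime_iff_not_dvd Nat.prime_two).2 hQi))) ▸ Nat.dvd_gcd h1 h2)
    exact (QuotientGroup.eq_one_iff a).1 (orderOf_eq_one_iff.1 h3)
  refine ⟨Q.map f, ?_, hQp.map f, hidx⟩
  constructor
  intro y hy c
  obtain ⟨a, ha, rfl⟩ := hy
  obtain ⟨b, hb⟩ : c * f a * c⁻¹ ∈ f.range := hTn.conj_mem _ ⟨a, rfl⟩ c
  rw [← hb]
  refine Subgroup.mem_map_of_mem f (hQmem b ?_)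
  obtain ⟨k, hk⟩ := (IsPGroup.iff_orderOf.1 hQp) ⟨a, ha⟩
  rw [Subgroup.orderOf_mk] at hk
  refine ⟨k, ?_⟩
  rw [← orderOf_injective f hf b, hb, ← hk, ← orderOf_injective f hf a]
  exact MulEquiv.orderOf_eq (MulAut.conj c) (f a)

/-- **[T1]** -/
theorem good4_six {S : Subgroup G} [hS : S.Normal] (h : Good4 ↥S) : Six G := by
  intro M hM
  have hf2 : Fact (Nat.Prime 2) := ⟨Nat.prime_two⟩
  obtain ⟨z, v, hz, hN, ⟨Q, hQ, hQp, hQi⟩, hv⟩ := h
  have hz' : orderOf (z : G) = 2 := by rw [Subgroup.orderOf_coe, hz]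
  have hv' : orderOf (v : G) = 4 := by rw [Subgroup.orderOf_coe, hv]
  have hz1 : (z : G) ≠ 1 := by
    intro h
    rw [h, orderOf_one] at hz'
    omega
  have hv1 : (v : G) ≠ 1 := by
    intro h
    rw [h, orderOf_one] at hv'
    omega
  have hzv : ¬ IsConj (z : G) (v : G) := by
    intro h
    have := orderOf_eq_of_isConj h
    omega
  by_cases hi : 2 ∣ S.index
  · -- a `2`-element outside `S`
    obtain ⟨P⟩ : Nonempty (Sylow 2 G) := inferInstance
    have hPS : ¬ (P : Subgroup G) ≤ S := fun hle =>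
      P.not_dvd_index (hi.trans (Subgroup.index_dvd_of_le hle))
    obtain ⟨w, hwP, hwS⟩ := Set.not_subset.1 hPS
    have hw1 : w ≠ 1 := by
      rintro rfl
      exact hwS S.one_mem
    have hwo : ∃ k, orderOf w = 2 ^ k := by
      obtain ⟨k, hk⟩ := (IsPGroup.iff_orderOf.1 P.2) ⟨w, hwP⟩
      exact ⟨k, by rwa [Subgroup.orderOf_mk] at hk⟩
    have hout : ∀ s : S, ¬ IsConj (s : G) w := by
      intro s hs
      obtain ⟨c, hc⟩ := isConj_iff.1 hs
      apply hwS
      rw [← hc]
      exact hS.conj_mem _ s.2 c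
    exact six_of_three hM (x := (z : G)) (y := (v : G)) (z := w) ⟨1, by rw [hz']; rfl⟩ hz1
      ⟨2, by rw [hv']; rfl⟩ hv1 hwo hw1 hzv (hout z) (hout v) hN.coe
  · obtain ⟨Q', hQ'n, hQ'p, hQ'i⟩ := exists_normal_sylow hi z Q hQp hQi
    have h3 : 3 ≤ rk M (z : G) := three_le_rank hM Q' hQ'p hQ'i (two_le_rk hM hN.coe)
    have h1 := one_le_rk hM (v : G)
    have h2 := two_le_rank hM hN.coe.not_compl
    have h := le_list hM [(z : G), (v : G)] (by
      intro y hy
      simp only [List.mem_cons, List.not_mem_nil, or_false] at hy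
      rcases hy with rfl | rfl
      · exact ⟨⟨1, by rw [hz']; rfl⟩, hz1⟩
      · exact ⟨⟨2, by rw [hv']; rfl⟩, hv1⟩) (List.pairwise_pair.2 hzv)
    simp only [List.map_cons, List.map_nil, List.sum_cons, List.sum_nil] at h
    omega

end main

end Cfsg.Agent.H62.Good4Six
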